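import Mathlib
import Cfsg.Agent.Helper25.Bsw4
import Cfsg.Agent.Helper2.BswR0

/-!
# Piece K4C of CALL S3282 (Brauer–Suzuki–Wall): existence of the normal configuration

Combinatorics of the multiplicity vectors `bswV K lam` and exclusion of the anomalous
configuration.
-/

set_option autoImplicit false

namespace Cfsg.Agent.Helper69

open Cfsg.Agent.Helper25 Cfsg Subgroup
open scoped ComplexConjugate

section comb

set_option linter.unusedSectionVars false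

variable {I : Type*} [Fintype I] [DecidableEq I]

theorem bswc_sum_two {M : Type*} [AddCommMonoid M] (f : I → M) (P Q : I) (hPQ : P ≠ Q)
    (h0 : ∀ χ, χ ≠ P → χ ≠ Q → f χ = 0) : ∑ χ, f χ = f P + f Q :=
  Finset.sum_eq_add P Q hPQ (fun c _ hc => h0 c hc.1 hc.2)
    (fun h => absurd (Finset.mem_univ _) h) (fun h => absurd (Finset.mem_univ _) h)

theorem bswc_sum_three {M : Type*} [AddCommMonoid M] (f : I → M) (a b c : I)
    (hab : a ≠ b) (hac : a ≠ c) (hbc : b ≠ c)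
    (h0 : ∀ x, x ≠ a → x ≠ b → x ≠ c → f x = 0) : ∑ x, f x = f a + f b + f c := by
  rw [← Finset.sum_subset (Finset.subset_univ ({a, b, c} : Finset I))]
  · rw [Finset.sum_insert, Finset.sum_insert, Finset.sum_singleton, add_assoc]
    · simpa using hbc
    · simp [hab, hac]
  · intro x _ hx
    simp only [Finset.mem_insert, Finset.mem_singleton, not_or] at hx
    exact h0 x hx.1 hx.2.1 hx.2.2

theorem bswc_sum_erase (o : I) (f : I → ℤ) :
    ∑ χ, (if χ = o then 0 else f χ) = ∑ χ, f χ - f o := by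
  have h1 : ∑ χ, f χ = ∑ χ, ((if χ = o then 0 else f χ) + (if χ = o then f χ else 0)) := by
    apply Finset.sum_congr rfl
    intro χ _
    by_cases h : χ = o <;> simp [h]
  rw [h1, Finset.sum_add_distrib]
  simp

theorem bswc_unit_of_sq_le {a : ℤ} (h : a * a ≤ 3) : a = 0 ∨ a = 1 ∨ a = -1 := by
  have h1 : a ≤ 1 := by nlinarith
  have h2 : -1 ≤ a := by nlinarith
  omega

theorem bswc_int_case (a b p q : ℤ) (ha : a = 1 ∨ a = -1) (hb : b = 1 ∨ b = -1)
    (hp : p = 0 ∨ p = 1 ∨ p = -1) (hq : q = 0 ∨ q = 1 ∨ q = -1) (h : a * p + b * q = 1) :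
    (p = a ∧ q = 0) ∨ (p = 0 ∧ q = b) := by
  rcases ha with rfl | rfl <;> rcases hb with rfl | rfl <;> rcases hp with rfl | rfl | rfl <;>
    rcases hq with rfl | rfl | rfl <;> omega

/-- Configuration of the multiplicity vector `vμ` of a non-real character relative to the
multiplicity vector `vl` of the real character: off the trivial character `o`, `vμ` is
`e` at `X` (where also `vl X = e`) and `d` at `Θ` (where `vl Θ = 0`). -/
structure BswCfg (o : I) (vμ vl : I → ℤ) (X Θ : I) (e d : ℤ) : Prop where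
  hX : X ≠ o
  hΘ : Θ ≠ o
  hXΘ : X ≠ Θ
  he : e = 1 ∨ e = -1
  hd : d = 1 ∨ d = -1
  hvX : vμ X = e
  hlX : vl X = e
  hvΘ : vμ Θ = d
  hlΘ : vl Θ = 0
  hz : ∀ χ, χ ≠ o → χ ≠ X → χ ≠ Θ → vμ χ = 0

theorem bswc_exists (o : I) (vμ vl : I → ℤ) (hμo : vμ o = 1) (hlo : vl o = 1)
    (hμμ : ∑ χ, vμ χ * vμ χ = 3) (hll : ∑ χ, vl χ * vl χ = 4)
    (hμl : ∑ χ, vμ χ * vl χ = 2) :
    ∃ X Θ e d, BswCfg o vμ vl X Θ e d := by
  have hw : ∑ χ, (if χ = o then 0 else vμ χ) * (if χ = o then 0 else vμ χ) = 2 := by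
    have : ∀ χ, (if χ = o then 0 else vμ χ) * (if χ = o then 0 else vμ χ)
        = (if χ = o then 0 else vμ χ * vμ χ) := by
      intro χ; by_cases h : χ = o <;> simp [h]
    simp only [this]
    rw [bswc_sum_erase, hμμ, hμo]; norm_num
  obtain ⟨P, Q, hPQ, hP, hQ, hz⟩ := Cfsg.Agent.Helper3.int_sq_sum_two _ hw
  have hPo : P ≠ o := by
    intro h; rw [h] at hP; simp at hP
  have hQo : Q ≠ o := by
    intro h; rw [h] at hQ; simp at hQ
  rw [if_neg hPo] at hP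
  rw [if_neg hQo] at hQ
  have hz' : ∀ χ, χ ≠ o → χ ≠ P → χ ≠ Q → vμ χ = 0 := by
    intro χ h1 h2 h3
    have := hz χ h2 h3
    rwa [if_neg h1] at this
  have hl1 : ∀ χ, χ ≠ o → (vl χ = 0 ∨ vl χ = 1 ∨ vl χ = -1) := by
    intro χ hχ
    apply bswc_unit_of_sq_le
    have h1 : ∑ x ∈ ({o, χ} : Finset I), vl x * vl x ≤ ∑ x, vl x * vl x :=
      Finset.sum_le_sum_of_subset_of_nonneg (Finset.subset_univ _)
        (fun x _ _ => mul_self_nonneg _)
    rw [Finset.sum_pair (Ne.symm hχ), hll, hlo] at h1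
    linarith
  have hov : vμ P * vl P + vμ Q * vl Q = 1 := by
    have h1 := bswc_sum_erase o (fun χ => vμ χ * vl χ)
    rw [hμl, hμo, hlo] at h1
    have h2 := bswc_sum_two (fun χ => if χ = o then 0 else vμ χ * vl χ) P Q hPQ (by
      intro χ h2 h3
      by_cases h : χ = o
      · simp [h]
      · simp [h, hz' χ h h2 h3])
    rw [h1] at h2
    simp only [if_neg hPo, if_neg hQo] at h2
    linarith
  rcases bswc_int_case _ _ _ _ hP hQ (hl1 P hPo) (hl1 Q hQo) hov with ⟨h1, h2⟩ | ⟨h1, h2⟩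
  · exact ⟨P, Q, vμ P, vμ Q, ⟨hPo, hQo, hPQ, hP, hQ, rfl, h1, rfl, h2, hz'⟩⟩
  · exact ⟨Q, P, vμ Q, vμ P, ⟨hQo, hPo, Ne.symm hPQ, hQ, hP, rfl, h2, rfl, h1,
      fun χ a b c => hz' χ a c b⟩⟩

theorem BswCfg.unique {o : I} {vμ vl : I → ℤ} {X Θ X' Θ' : I} {e d e' d' : ℤ}
    (c : BswCfg o vμ vl X Θ e d) (c' : BswCfg o vμ vl X' Θ' e' d') :
    X = X' ∧ Θ = Θ' ∧ e = e' ∧ d = d' := by
  have he0 : e' ≠ 0 := by rcases c'.he with h | h <;> rw [h] <;> norm_num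
  have hd0 : d' ≠ 0 := by rcases c'.hd with h | h <;> rw [h] <;> norm_num
  have hX : X' = X := by
    by_contra hne
    by_cases hΘ : X' = Θ
    · have := c'.hlX; rw [hΘ, c.hlΘ] at this; exact he0 this.symm
    · have := c.hz X' c'.hX hne hΘ; rw [c'.hvX] at this; exact he0 this
  have hΘ : Θ' = Θ := by
    by_contra hne
    by_cases hX2 : Θ' = X
    · exact c'.hXΘ (hX.trans hX2.symm)
    · have := c.hz Θ' c'.hΘ hX2 hne; rw [c'.hvΘ] at this; exact hd0 this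
  refine ⟨hX.symm, hΘ.symm, ?_, ?_⟩
  · rw [← c.hvX, ← c'.hvX, hX]
  · rw [← c.hvΘ, ← c'.hvΘ, hΘ]

theorem BswCfg.pair {o : I} {vμ vν vl : I → ℤ} {X Θ X' Θ' : I} {e d e' d' : ℤ}
    (c : BswCfg o vμ vl X Θ e d) (c' : BswCfg o vν vl X' Θ' e' d')
    (hμo : vμ o = 1) (hνo : vν o = 1) (hμν : ∑ χ, vμ χ * vν χ = 2) :
    (X = X' ∧ Θ ≠ Θ') ∨ (X ≠ X' ∧ Θ = Θ' ∧ d = d') := by
  have hov : vμ X * vν X + vμ Θ * vν Θ = 1 := by
    have h1 := bswc_sum_erase o (fun χ => vμ χ * vν χ)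
    rw [hμν, hμo, hνo] at h1
    have h2 := bswc_sum_two (fun χ => if χ = o then 0 else vμ χ * vν χ) X Θ c.hXΘ (by
      intro χ h2 h3
      by_cases h : χ = o
      · simp [h]
      · simp [h, c.hz χ h h2 h3])
    rw [h1] at h2
    simp only [if_neg c.hX, if_neg c.hΘ] at h2
    linarith
  rw [c.hvX, c.hvΘ] at hov
  have he0 : e ≠ 0 := by rcases c.he with h | h <;> rw [h] <;> norm_num
  have he0' : e' ≠ 0 := by rcases c'.he with h | h <;> rw [h] <;> norm_num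
  by_cases hX : X = X'
  · have hee : e' = e := by rw [← c'.hlX, ← c.hlX, hX]
    have h1 : vν X = e := by rw [hX, c'.hvX, hee]
    by_cases hΘ : Θ = Θ'
    · exfalso
      have h2 : vν Θ = d' := by rw [hΘ, c'.hvΘ]
      rw [h1, h2] at hov
      rcases c.he with h | h <;> rcases c.hd with h' | h' <;> rcases c'.hd with h'' | h'' <;>
        rw [h, h', h''] at hov <;> norm_num at hov
    · exact Or.inl ⟨hX, hΘ⟩
  · have hXΘ' : X ≠ Θ' := by
      intro h; have := c.hlX; rw [h, c'.hlΘ] at this; exact he0 this.symm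
    have h1 : vν X = 0 := c'.hz X c.hX hX hXΘ'
    by_cases hΘ : Θ = Θ'
    · have h2 : vν Θ = d' := by rw [hΘ, c'.hvΘ]
      rw [h1, h2] at hov
      refine Or.inr ⟨hX, hΘ, ?_⟩
      rcases c.hd with h' | h' <;> rcases c'.hd with h'' | h'' <;>
        rw [h', h''] at hov ⊢ <;> norm_num at hov
    · exfalso
      have hΘX' : Θ ≠ X' := by
        intro h; have := c'.hlX; rw [← h, c.hlΘ] at this; exact he0' this.symm
      have h2 : vν Θ = 0 := c'.hz Θ c.hΘ hΘX' hΘ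
      rw [h1, h2] at hov
      norm_num at hov

/-- The combinatorial dichotomy: normal configuration or anomalous configuration. -/
theorem bswc_main {Λ : Type*} (o : I) (ι : Λ → Λ) (one l0 : Λ) (v : Λ → I → ℤ)
    (hsum : ∀ l m, l ≠ one → m ≠ one → l ≠ m → l ≠ ι m → ∑ χ, v l χ * v m χ = 2)
    (hnorm3 : ∀ l, l ≠ one → ι l ≠ l → ∑ χ, v l χ * v l χ = 3)
    (hnorm4 : ∑ χ, v l0 χ * v l0 χ = 4)
    (htriv : ∀ l, l ≠ one → v l o = 1)
    (hinv : ∀ l, v (ι l) = v l)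
    (hιι : ∀ l, ι (ι l) = l)
    (hl0 : l0 ≠ one) (hl0r : ι l0 = l0) (huniq : ∀ l, l ≠ one → ι l = l → l = l0)
    (μ1 : Λ) (hμ11 : μ1 ≠ one) (hμ1 : ι μ1 ≠ μ1) :
    (∃ (ε : ℤ) (X : I), (ε = 1 ∨ ε = -1) ∧ X ≠ o ∧ ∀ l, l ≠ one → v l X = ε) ∨
    (∃ (Θ : I) (δ : ℤ) (ν1 : Λ), (δ = 1 ∨ δ = -1) ∧ Θ ≠ o ∧ ν1 ≠ one ∧ ι ν1 ≠ ν1 ∧
      ν1 ≠ μ1 ∧ ν1 ≠ ι μ1 ∧
      ∀ ρ, ρ ≠ one → ι ρ ≠ ρ → ∃ (X : I) (e : ℤ), (e = 1 ∨ e = -1) ∧ X ≠ o ∧ X ≠ Θ ∧
        v ρ X = e ∧ v l0 X = e ∧ v ρ Θ = δ ∧ (∀ χ, χ ≠ o → χ ≠ X → χ ≠ Θ → v ρ χ = 0) ∧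
        (∀ ρ', ρ' ≠ one → ι ρ' ≠ ρ' → ρ' ≠ ρ → ρ' ≠ ι ρ → v ρ' X = 0)) := by
  have hcfg : ∀ ρ, ρ ≠ one → ι ρ ≠ ρ → ∃ X Θ e d, BswCfg o (v ρ) (v l0) X Θ e d := by
    intro ρ h1 h2
    have hρl : ρ ≠ l0 := fun h => h2 (by rw [h, hl0r])
    have hρl' : ρ ≠ ι l0 := by rw [hl0r]; exact hρl
    exact bswc_exists o (v ρ) (v l0) (htriv ρ h1) (htriv l0 hl0) (hnorm3 ρ h1 h2) hnorm4
      (hsum ρ l0 h1 hl0 hρl hρl')
  obtain ⟨X1, Θ1, e1, d1, c1⟩ := hcfg μ1 hμ11 hμ1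
  by_cases hall : ∀ ν X' Θ' e' d', ν ≠ one → ι ν ≠ ν →
      BswCfg o (v ν) (v l0) X' Θ' e' d' → X' = X1
  · left
    refine ⟨e1, X1, c1.he, c1.hX, ?_⟩
    intro l hl
    by_cases hr : ι l = l
    · rw [huniq l hl hr]; exact c1.hlX
    · obtain ⟨X', Θ', e', d', c'⟩ := hcfg l hl hr
      have hX := hall l X' Θ' e' d' hl hr c'
      rw [← hX, c'.hvX, ← c'.hlX, hX, c1.hlX]
  · right
    simp only [not_forall] at hall
    obtain ⟨ν1, X2, Θ2, e2, d2, hν1, hν1r, c2, hX21⟩ := hall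
    have hν1μ : ν1 ≠ μ1 := by
      intro h; rw [h] at c2; exact hX21 (c1.unique c2).1.symm
    have hν1μ' : ν1 ≠ ι μ1 := by
      intro h; rw [h, hinv] at c2; exact hX21 (c1.unique c2).1.symm
    have hμν' : μ1 ≠ ι ν1 := by
      intro h; apply hν1μ'; rw [h, hιι]
    have hp := c1.pair c2 (htriv μ1 hμ11) (htriv ν1 hν1)
      (hsum μ1 ν1 hμ11 hν1 (Ne.symm hν1μ) hμν')
    have hΘ12 : Θ1 = Θ2 ∧ d1 = d2 := by
      rcases hp with ⟨h, _⟩ | ⟨_, h1, h2⟩
      · exact absurd h.symm hX21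
      · exact ⟨h1, h2⟩
    have hΘall : ∀ ρ X' Θ' e' d', ρ ≠ one → ι ρ ≠ ρ →
        BswCfg o (v ρ) (v l0) X' Θ' e' d' → Θ' = Θ1 ∧ d' = d1 := by
      intro ρ X' Θ' e' d' hρ hρr c'
      by_cases h1 : ρ = μ1
      · rw [h1] at c'; have := c1.unique c'; exact ⟨this.2.1.symm, this.2.2.2.symm⟩
      by_cases h2 : ρ = ι μ1
      · rw [h2, hinv] at c'; have := c1.unique c'; exact ⟨this.2.1.symm, this.2.2.2.symm⟩
      by_cases h3 : ρ = ν1
      · rw [h3] at c'; have := c2.unique c'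
        exact ⟨this.2.1.symm.trans hΘ12.1.symm, this.2.2.2.symm.trans hΘ12.2.symm⟩
      by_cases h4 : ρ = ι ν1
      · rw [h4, hinv] at c'; have := c2.unique c'
        exact ⟨this.2.1.symm.trans hΘ12.1.symm, this.2.2.2.symm.trans hΘ12.2.symm⟩
      have hp1 := c'.pair c1 (htriv ρ hρ) (htriv μ1 hμ11) (hsum ρ μ1 hρ hμ11 h1 h2)
      have hp2 := c'.pair c2 (htriv ρ hρ) (htriv ν1 hν1) (hsum ρ ν1 hρ hν1 h3 h4)
      rcases hp1 with ⟨hx1, hne1⟩ | ⟨_, ht1, hd1⟩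
      · rcases hp2 with ⟨hx2, _⟩ | ⟨_, ht2, _⟩
        · exact absurd (hx2.symm.trans hx1) hX21
        · exact absurd (ht2.trans hΘ12.1.symm) hne1
      · exact ⟨ht1, hd1⟩
    refine ⟨Θ1, d1, ν1, c1.hd, c1.hΘ, hν1, hν1r, hν1μ, hν1μ', ?_⟩
    intro ρ hρ hρr
    obtain ⟨X', Θ', e', d', c'⟩ := hcfg ρ hρ hρr
    obtain ⟨hΘ', hd'⟩ := hΘall ρ X' Θ' e' d' hρ hρr c'
    rw [hΘ', hd'] at c'
    refine ⟨X', e', c'.he, c'.hX, c'.hXΘ, c'.hvX, c'.hlX, c'.hvΘ, c'.hz, ?_⟩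
    intro ρ' hρ' hρ'r hne hne'
    obtain ⟨X'', Θ'', e'', d'', c''⟩ := hcfg ρ' hρ' hρ'r
    obtain ⟨hΘ'', hd''⟩ := hΘall ρ' X'' Θ'' e'' d'' hρ' hρ'r c''
    rw [hΘ'', hd''] at c''
    have hp := c''.pair c' (htriv ρ' hρ') (htriv ρ hρ) (hsum ρ' ρ hρ' hρ hne hne')
    have hXne : X'' ≠ X' := by
      rcases hp with ⟨_, h⟩ | ⟨h, _, _⟩
      · exact absurd rfl h
      · exact h
    exact c''.hz X' c'.hX (Ne.symm hXne) c'.hXΘ

end comb

section concrete

variable {G : Type*} [Group G] [Fintype G] {t s : G} {K : Subgroup G} [Fintype K]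
  [Fintype (K →* ℂˣ)] [Fintype (IrrCharacter G)]

/-- The normal configuration exists, given the real character `l0` and a non-real character. -/
theorem bsw_normal_of_real (h : BswHyp t s K)
    (l0 : K →* ℂˣ) (hl0 : l0 ≠ 1) (hl0r : l0⁻¹ = l0)
    (huniq : ∀ l : K →* ℂˣ, l ≠ 1 → l⁻¹ = l → l = l0)
    (μ1 : K →* ℂˣ) (hμ11 : μ1 ≠ 1) (hμ1 : μ1⁻¹ ≠ μ1) :
    ∃ (ε : ℤ) (X : IrrCharacter G), BswNormal K ε X := by
  classical
  have hsum2 : ∀ l m : K →* ℂˣ, l ≠ 1 → m ≠ 1 → l ≠ m → l ≠ m⁻¹ →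
      ∑ χ : IrrCharacter G, bswV K l χ * bswV K m χ = 2 := by
    intro l m hl hm h1 h2
    have := bswV_sum_mul h l m hl hm
    rw [if_neg h1, if_neg h2] at this
    simpa using this
  have hnorm3 : ∀ l : K →* ℂˣ, l ≠ 1 → l⁻¹ ≠ l →
      ∑ χ : IrrCharacter G, bswV K l χ * bswV K l χ = 3 := by
    intro l hl hr
    have := bswV_sum_mul h l l hl hl
    rw [if_pos rfl, if_neg (Ne.symm hr)] at this
    rw [this]; norm_num
  have hnorm4 : ∑ χ : IrrCharacter G, bswV K l0 χ * bswV K l0 χ = 4 := by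
    have := bswV_sum_mul h l0 l0 hl0 hl0
    rw [if_pos rfl, if_pos hl0r.symm] at this
    rw [this]; norm_num
  rcases bswc_main (Cfsg.Agent.Helper79.trivIrr G) (fun l : K →* ℂˣ => l⁻¹) 1 l0 (bswV K)
      hsum2 hnorm3 hnorm4 (fun l hl => bswV_triv K hl) (fun l => bswV_inv h l)
      (fun l => inv_inv l) hl0 hl0r huniq μ1 hμ11 hμ1 with
    ⟨ε, X, hε, hX, hall⟩ | ⟨Θ, δ, ν1, hδ, hΘo, hν1, hν1r, hν1μ, hν1μ', H⟩
  · exact ⟨ε, X, hε, hX, hall⟩
  · exfalso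
    have hν1r' : ν1⁻¹ ≠ ν1 := hν1r
    have hν1μ'' : ν1 ≠ μ1⁻¹ := hν1μ'
    have ht1 : t ≠ 1 := bsw_ne_one_of_order_two h.ht
    obtain ⟨tK, htK⟩ : ∃ tK : K, (tK : G) = t := ⟨⟨t, h.htK⟩, rfl⟩
    have htK1 : tK ≠ 1 := fun e => ht1 (by rw [← htK, e]; rfl)
    have hmul : ∀ l : K →* ℂˣ, l tK * l tK = 1 := by
      intro l
      have h1 : tK * tK = 1 := Subtype.ext (by
        show (tK : G) * (tK : G) = 1
        rw [htK]; exact h.t_sq)
      rw [← map_mul, h1, map_one]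
    have hsq : ∀ l : K →* ℂˣ, ((l tK : ℂˣ) : ℂ) * ((l tK : ℂˣ) : ℂ) = 1 := by
      intro l
      have h3 := congrArg (fun u : ℂˣ => (u : ℂ)) (hmul l)
      simpa using h3
    have hinvt : ∀ l : K →* ℂˣ, ((l⁻¹ tK : ℂˣ) : ℂ) = ((l tK : ℂˣ) : ℂ) := by
      intro l
      have : l⁻¹ tK = l tK := by
        rw [MonoidHom.inv_apply]; exact inv_eq_of_mul_eq_one_left (hmul l)
      rw [this]
    set a : ℂ := ((l0 tK : ℂˣ) : ℂ) with ha_def
    set θ : ℂ := (Θ : G → ℂ) 1 with hθ_def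
    set c : ℂ := -1 - (δ : ℂ) * θ with hc_def
    set D : ℂ := (δ : ℂ) * ((Θ : G → ℂ) t * (Θ : G → ℂ) t / (Θ : G → ℂ) 1) with hD_def
    set N : ℂ := (Nat.card {x : G // IsConj t x} : ℂ) with hN_def
    have hN0 : N ≠ 0 := by
      have : 0 < Nat.card {x : G // IsConj t x} := by
        rw [Nat.card_pos_iff]
        exact ⟨⟨⟨t, IsConj.refl t⟩⟩, inferInstance⟩
      rw [hN_def]
      exact_mod_cast this.ne'
    have claim : ∀ ρ : K →* ℂˣ, ρ ≠ 1 → ρ⁻¹ ≠ ρ →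
        c ≠ 0 ∧ N * (1 + (a + 2 * ((ρ tK : ℂˣ) : ℂ)) ^ 2 / c + D)
          = 2 * (Nat.card K : ℂ) ^ 2 := by
      intro ρ hρ hρr
      obtain ⟨X, e, he, hXo, hXΘ, hvX, hlX, hvΘ, hz, hz'⟩ := H ρ hρ hρr
      have hXt : (X : G → ℂ) t = - (e : ℂ) * (a + 2 * ((ρ tK : ℂˣ) : ℂ)) := by
        have h1 := bsw_irr_apply h X tK htK1
        have h2 : ∑ lam : K →* ℂˣ, (bswV K lam X : ℂ) * ((lam tK : ℂˣ) : ℂ) =
            (bswV K l0 X : ℂ) * ((l0 tK : ℂˣ) : ℂ) + (bswV K ρ X : ℂ) * ((ρ tK : ℂˣ) : ℂ)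
              + (bswV K ρ⁻¹ X : ℂ) * ((ρ⁻¹ tK : ℂˣ) : ℂ) := by
          apply bswc_sum_three _ l0 ρ ρ⁻¹
          · intro hh; apply hρr; rw [← hh]; exact hl0r
          · intro hh; apply hρr
            have : ρ = l0 := by rw [← inv_inv ρ, ← hh, hl0r]
            rw [this]; exact hl0r
          · exact Ne.symm hρr
          · intro x hx1 hx2 hx3
            by_cases hx : x = 1
            · rw [hx, bswV_one_hom]; simp
            · have hxr : x⁻¹ ≠ x := fun hr => hx1 (huniq x hx hr)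
              rw [hz' x hx hxr hx2 hx3]; simp
        rw [htK, h2, bswV_inv h ρ, hinvt ρ, hlX, hvX] at h1
        rw [h1]; ring
      have hdeg : 1 + (e : ℂ) * (X : G → ℂ) 1 + (δ : ℂ) * θ = 0 := by
        have h1 := bswV_deg K ρ
        rw [bswc_sum_three _ (Cfsg.Agent.Helper79.trivIrr G) X Θ (Ne.symm hXo) (Ne.symm hΘo) hXΘ
          (by
            intro χ h1 h2 h3
            rw [hz χ h1 h2 h3]; simp)] at h1
        rw [bswV_triv K hρ, hvX, hvΘ] at h1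
        simpa using h1
      have hx0 : (X : G → ℂ) 1 ≠ 0 := Cfsg.Agent.Helper80.irr_one_ne_zero X
      have hc : (e : ℂ) * (X : G → ℂ) 1 = c := by
        rw [hc_def]; linear_combination hdeg
      have hc0 : c ≠ 0 := by
        rw [← hc]
        rcases he with rfl | rfl
        · simpa using hx0
        · simpa using hx0
      refine ⟨hc0, ?_⟩
      have hW : (e : ℂ) * ((X : G → ℂ) t * (X : G → ℂ) t / (X : G → ℂ) 1)
          = (a + 2 * ((ρ tK : ℂˣ) : ℂ)) ^ 2 / c := by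
        rw [hXt]
        rcases he with rfl | rfl
        · have hx : (X : G → ℂ) 1 = c := by simpa using hc
          rw [hx]; push_cast; ring
        · have hx : (X : G → ℂ) 1 = -c := by
            have := hc; push_cast at this; linear_combination -this
          rw [hx]; push_cast; field_simp
      have hkey := bsw_key h hρ
      rw [bswc_sum_three _ (Cfsg.Agent.Helper79.trivIrr G) X Θ (Ne.symm hXo) (Ne.symm hΘo) hXΘ
          (by
            intro χ h1 h2 h3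
            rw [hz χ h1 h2 h3]; simp)] at hkey
      rw [bswV_triv K hρ, hvX, hvΘ, hW] at hkey
      rw [← hkey, hD_def, hN_def]
      simp
    obtain ⟨hc0, hk1⟩ := claim μ1 hμ11 hμ1
    have ha2 := hsq l0
    have ha0 : a ≠ 0 := by
      intro h0; rw [← ha_def, h0] at ha2; simp at ha2
    have hτ : ∀ ρ : K →* ℂˣ, ρ ≠ 1 → ρ⁻¹ ≠ ρ →
        ((ρ tK : ℂˣ) : ℂ) = ((μ1 tK : ℂˣ) : ℂ) := by
      intro ρ hρ hρr
      obtain ⟨_, hk2⟩ := claim ρ hρ hρr
      have h2 : N * ((a + 2 * ((ρ tK : ℂˣ) : ℂ)) ^ 2 / c)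
          = N * ((a + 2 * ((μ1 tK : ℂˣ) : ℂ)) ^ 2 / c) := by
        linear_combination hk2 - hk1
      have h3 := mul_left_cancel₀ hN0 h2
      have h1 : (a + 2 * ((ρ tK : ℂˣ) : ℂ)) ^ 2 = (a + 2 * ((μ1 tK : ℂˣ) : ℂ)) ^ 2 := by
        field_simp at h3; exact h3
      have hr := hsq ρ
      have hr1 := hsq μ1
      have h4 : a * (((ρ tK : ℂˣ) : ℂ) - ((μ1 tK : ℂˣ) : ℂ)) = 0 := by
        linear_combination (1 / 4 : ℂ) * h1 - hr + hr1
      rcases mul_eq_zero.mp h4 with h5 | h5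
      · exact absurd h5 ha0
      · exact sub_eq_zero.mp h5
    set τ : ℂ := ((μ1 tK : ℂˣ) : ℂ) with hτ_def
    have hsum0 : ∑ lam : K →* ℂˣ, ((lam tK : ℂˣ) : ℂ) = 0 := by
      have := Cfsg.Agent.Helper82.excHom_sum_dual (bsw_comm h) tK
      rw [if_neg htK1] at this; exact this
    have hsum1 : ∑ lam : K →* ℂˣ, (((lam tK : ℂˣ) : ℂ) - τ) = (1 - τ) + (a - τ) := by
      rw [bswc_sum_two _ 1 l0 (Ne.symm hl0) (by
        intro x hx1 hx2
        have hxr : x⁻¹ ≠ x := fun hr => hx2 (huniq x hx1 hr)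
        rw [hτ x hx1 hxr]; ring)]
      simp [← ha_def]
    rw [Finset.sum_sub_distrib, hsum0, Finset.sum_const, Finset.card_univ, nsmul_eq_mul]
      at hsum1
    have hcard5 : 5 ≤ Fintype.card (K →* ℂˣ) := by
      have n1 : μ1⁻¹ ∉ ({ν1} : Finset (K →* ℂˣ)) := by
        simp only [Finset.mem_singleton]
        exact fun hh => hν1μ'' hh.symm
      have n2 : μ1 ∉ ({μ1⁻¹, ν1} : Finset (K →* ℂˣ)) := by
        simp only [Finset.mem_insert, Finset.mem_singleton, not_or]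
        exact ⟨Ne.symm hμ1, Ne.symm hν1μ⟩
      have n3 : l0 ∉ ({μ1, μ1⁻¹, ν1} : Finset (K →* ℂˣ)) := by
        simp only [Finset.mem_insert, Finset.mem_singleton, not_or]
        refine ⟨?_, ?_, ?_⟩
        · intro hh; apply hμ1; rw [← hh]; exact hl0r
        · intro hh; apply hμ1
          have : μ1 = l0 := by rw [← inv_inv μ1, ← hh, hl0r]
          rw [this]; exact hl0r
        · intro hh; apply hν1r'; rw [← hh]; exact hl0r
      have n4 : (1 : K →* ℂˣ) ∉ ({l0, μ1, μ1⁻¹, ν1} : Finset (K →* ℂˣ)) := by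
        simp only [Finset.mem_insert, Finset.mem_singleton, not_or]
        refine ⟨Ne.symm hl0, Ne.symm hμ11, ?_, Ne.symm hν1⟩
        intro hh
        apply hμ11
        have h8 := inv_inv μ1
        rw [← hh] at h8
        exact MonoidHom.ext (fun x => by
          have h9 := DFunLike.congr_fun h8 x
          simpa using h9.symm)
      have hd : ({1, l0, μ1, μ1⁻¹, ν1} : Finset (K →* ℂˣ)).card = 5 := by
        rw [Finset.card_insert_of_notMem n4, Finset.card_insert_of_notMem n3,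
          Finset.card_insert_of_notMem n2, Finset.card_insert_of_notMem n1,
          Finset.card_singleton]
      calc 5 = ({1, l0, μ1, μ1⁻¹, ν1} : Finset (K →* ℂˣ)).card := hd.symm
        _ ≤ Fintype.card (K →* ℂˣ) := Finset.card_le_univ _
    have hτ2 := hsq μ1
    have hτ' : τ = 1 ∨ τ = -1 := by
      have : (τ - 1) * (τ + 1) = 0 := by linear_combination hτ2
      rcases mul_eq_zero.mp this with h5 | h5
      · left; linear_combination h5
      · right; linear_combination h5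
    have ha' : a = 1 ∨ a = -1 := by
      have : (a - 1) * (a + 1) = 0 := by linear_combination ha2
      rcases mul_eq_zero.mp this with h5 | h5
      · left; linear_combination h5
      · right; linear_combination h5
    rcases hτ' with h1 | h1 <;> rcases ha' with h2 | h2
    · rw [h1, h2] at hsum1
      have h6 : (Fintype.card (K →* ℂˣ) : ℂ) = 0 := by linear_combination -hsum1
      have h7 : Fintype.card (K →* ℂˣ) = 0 := by exact_mod_cast h6
      omega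
    · rw [h1, h2] at hsum1
      have h6 : (Fintype.card (K →* ℂˣ) : ℂ) = 2 := by linear_combination -hsum1
      have h7 : Fintype.card (K →* ℂˣ) = 2 := by exact_mod_cast h6
      omega
    · rw [h1, h2] at hsum1
      have h6 : (Fintype.card (K →* ℂˣ) : ℂ) = 4 := by linear_combination hsum1
      have h7 : Fintype.card (K →* ℂˣ) = 4 := by exact_mod_cast h6
      omega
    · rw [h1, h2] at hsum1
      have h6 : (Fintype.card (K →* ℂˣ) : ℂ) = 2 := by linear_combination hsum1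
      have h7 : Fintype.card (K →* ℂˣ) = 2 := by exact_mod_cast h6
      omega

/-- PIECE K4C of CALL S3282: existence of the normal configuration. -/
theorem bsw_normal {G : Type*} [Group G] [Fintype G] {t s : G} {K : Subgroup G} [Fintype K]
    [Fintype (K →* ℂˣ)] [Fintype (IrrCharacter G)] (h : BswHyp t s K)
    (hk : 4 ≤ Nat.card K) : ∃ (ε : ℤ) (X : IrrCharacter G), BswNormal K ε X := by
  classical
  obtain ⟨l0, hl0, hl0r, huniq⟩ := Cfsg.Agent.Helper2.bsw_exists_real h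
  obtain ⟨μ1, hμ11, hμ1⟩ : ∃ μ1 : K →* ℂˣ, μ1 ≠ 1 ∧ μ1⁻¹ ≠ μ1 := by
    by_contra hno
    simp only [not_exists, not_and, not_not] at hno
    have hall : ∀ l : K →* ℂˣ, l = 1 ∨ l = l0 := fun l => by
      by_cases hl : l = 1
      · exact Or.inl hl
      · exact Or.inr (huniq l hl (hno l hl))
    have hcard : Fintype.card (K →* ℂˣ) ≤ 2 := by
      calc Fintype.card (K →* ℂˣ) = (Finset.univ : Finset (K →* ℂˣ)).card := rfl
        _ ≤ ({1, l0} : Finset (K →* ℂˣ)).card := Finset.card_le_card (fun l _ => by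
              rcases hall l with h | h <;> simp [h])
        _ ≤ 2 := Finset.card_le_two
    have h2 := Cfsg.Agent.Helper82.excHom_card (bsw_comm h)
    rw [Nat.card_eq_fintype_card] at h2
    rw [Nat.card_eq_fintype_card] at hk
    omega
  exact bsw_normal_of_real h l0 hl0 hl0r huniq μ1 hμ11 hμ1

end concrete

end Cfsg.Agent.Helper69
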