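import Cfsg.Agent.Helper69.SmallClasses
import Cfsg.Agent.Helper69.Basic

set_option autoImplicit false

/-!
Counting commuting pairs: `π`-elements, the class-counting formula
`#{(x, y) : x a π-element, xy = yx} = k_π(G) |G|`, and the inequality
`k_π(G) ≤ k_π(N) k_π(G/N)`.
-/

namespace Cfsg.Agent.Helper69

/-- `x` is a `π`-element: every prime divisor of its order lies in `π`. -/
def IsPiElt {G : Type*} [Monoid G] (π : Set ℕ) (x : G) : Prop :=
  ∀ q : ℕ, q.Prime → q ∣ orderOf x → q ∈ π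

theorem orderOf_conj_eq {G : Type*} [Group G] (x g : G) : orderOf (g * x * g⁻¹) = orderOf x := by
  have h : SemiconjBy g x (g * x * g⁻¹) := by
    unfold SemiconjBy
    group
  exact (h.orderOf_eq g).symm

theorem isPiElt_conj {G : Type*} [Group G] (π : Set ℕ) (x g : G) (hx : IsPiElt π x) :
    IsPiElt π (g * x * g⁻¹) := by
  intro q hq hdvd
  rw [orderOf_conj_eq] at hdvd
  exact hx q hq hdvd

/-- Conjugate elements have centralizers of the same order. -/
theorem card_centralizer_conj {G : Type*} [Group G] [Finite G] (x g : G) :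
    Nat.card (Subgroup.centralizer ({g * x * g⁻¹} : Set G)) =
      Nat.card (Subgroup.centralizer ({x} : Set G)) := by
  have hidx : (Subgroup.centralizer ({g * x * g⁻¹} : Set G)).index =
      (Subgroup.centralizer ({x} : Set G)).index := by
    rw [index_centralizer_eq_card_conj, index_centralizer_eq_card_conj]
    apply Nat.card_congr
    refine Equiv.subtypeEquivRight ?_
    intro y
    have hc : IsConj x (g * x * g⁻¹) := isConj_iff.mpr ⟨g, rfl⟩
    constructor
    · intro h; exact hc.trans h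
    · intro h; exact hc.symm.trans h
  have e1 := Subgroup.card_mul_index (Subgroup.centralizer ({g * x * g⁻¹} : Set G))
  have e2 := Subgroup.card_mul_index (Subgroup.centralizer ({x} : Set G))
  rw [hidx] at e1
  have hpos : 0 < (Subgroup.centralizer ({x} : Set G)).index :=
    Nat.pos_of_ne_zero Subgroup.index_ne_zero_of_finite
  exact Nat.eq_of_mul_eq_mul_right hpos (e1.trans e2.symm)

/-- The class-counting formula for a conjugation-invariant predicate. -/
theorem sum_card_centralizer_eq {G : Type*} [Group G] [Fintype G] (P : G → Prop) [DecidablePred P]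
    (hP : ∀ x g : G, P x → P (g * x * g⁻¹)) :
    ∑ x ∈ Finset.univ.filter P, Nat.card (Subgroup.centralizer ({x} : Set G)) =
      Nat.card {C : ConjClasses G // ∀ x : G, ConjClasses.mk x = C → P x} * Nat.card G := by
  classical
  let _ := Fintype.ofFinite (ConjClasses G)
  rw [Finset.sum_filter]
  rw [← Finset.sum_fiberwise (s := Finset.univ) (g := (ConjClasses.mk : G → ConjClasses G))]
  have key : ∀ C : ConjClasses G,
      ∑ x ∈ Finset.univ.filter (fun x : G => ConjClasses.mk x = C),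
        (if P x then Nat.card (Subgroup.centralizer ({x} : Set G)) else 0) =
      if (∀ x : G, ConjClasses.mk x = C → P x) then Nat.card G else 0 := by
    intro C
    obtain ⟨c, rfl⟩ := ConjClasses.exists_rep C
    by_cases hc : P c
    · have hall : ∀ x : G, ConjClasses.mk x = ConjClasses.mk c → P x := by
        intro x hx
        obtain ⟨g, hg⟩ := isConj_iff.mp (ConjClasses.mk_eq_mk_iff_isConj.mp hx)
        have : x = g⁻¹ * c * g⁻¹⁻¹ := by rw [← hg]; group
        rw [this]; exact hP c g⁻¹ hc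
      rw [if_pos hall]
      have hcongr : ∀ x ∈ Finset.univ.filter (fun x : G => ConjClasses.mk x = ConjClasses.mk c),
          (if P x then Nat.card (Subgroup.centralizer ({x} : Set G)) else 0) =
            Nat.card (Subgroup.centralizer ({c} : Set G)) := by
        intro x hx
        rw [Finset.mem_filter] at hx
        rw [if_pos (hall x hx.2)]
        obtain ⟨g, hg⟩ := isConj_iff.mp (ConjClasses.mk_eq_mk_iff_isConj.mp hx.2)
        rw [← hg, card_centralizer_conj]
      rw [Finset.sum_congr rfl hcongr, Finset.sum_const, smul_eq_mul]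
      have hcard : (Finset.univ.filter (fun x : G => ConjClasses.mk x = ConjClasses.mk c)).card =
          (Subgroup.centralizer ({c} : Set G)).index := by
        rw [index_centralizer_eq_card_conj, Nat.card_eq_fintype_card, Fintype.card_subtype]
        congr 1
        ext x
        simp only [Finset.mem_filter, Finset.mem_univ, true_and]
        rw [ConjClasses.mk_eq_mk_iff_isConj, isConj_comm]
      rw [hcard, mul_comm, Subgroup.card_mul_index]
    · have hnall : ¬ ∀ x : G, ConjClasses.mk x = ConjClasses.mk c → P x := fun h => hc (h c rfl)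
      rw [if_neg hnall]
      apply Finset.sum_eq_zero
      intro x hx
      rw [Finset.mem_filter] at hx
      rw [if_neg]
      intro hPx
      apply hc
      obtain ⟨g, hg⟩ := isConj_iff.mp (ConjClasses.mk_eq_mk_iff_isConj.mp hx.2)
      rw [← hg]; exact hP x g hPx
  rw [Finset.sum_congr rfl (fun C _ => key C)]
  rw [Finset.sum_ite, Finset.sum_const_zero, add_zero, Finset.sum_const, smul_eq_mul]
  congr 1
  rw [Nat.card_eq_fintype_card, Fintype.card_subtype]

/-- The number of commuting pairs whose first entry satisfies a conjugation-invariant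
predicate. -/
theorem card_comm_pairs_eq {G : Type*} [Group G] [Finite G] (P : G → Prop)
    (hP : ∀ x g : G, P x → P (g * x * g⁻¹)) :
    Nat.card {p : G × G // P p.1 ∧ Commute p.1 p.2} =
      Nat.card {C : ConjClasses G // ∀ x : G, ConjClasses.mk x = C → P x} * Nat.card G := by
  classical
  let _ := Fintype.ofFinite G
  rw [← sum_card_centralizer_eq P hP]
  rw [Nat.card_congr (Equiv.subtypeProdEquivSigmaSubtype (fun a b : G => P a ∧ Commute a b)),
    Nat.card_sigma, Finset.sum_filter]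
  apply Finset.sum_congr rfl
  intro a _
  by_cases ha : P a
  · rw [if_pos ha]
    apply Nat.card_congr
    refine Equiv.subtypeEquivRight ?_
    intro b
    rw [Subgroup.mem_centralizer_iff]
    constructor
    · rintro ⟨-, h⟩ y hy
      rw [Set.mem_singleton_iff] at hy
      rw [hy]; exact h.eq
    · intro h
      exact ⟨ha, h a rfl⟩
  · rw [if_neg ha]
    have : IsEmpty {b : G // P a ∧ Commute a b} := ⟨fun b => ha b.2.1⟩
    exact Nat.card_of_isEmpty

/-- Splitting a positive integer into its `π`-part and its `π'`-part. -/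
theorem exists_pi_decomp (π : Set ℕ) (n : ℕ) (hn : 0 < n) :
    ∃ a b : ℕ, a * b = n ∧ Nat.Coprime a b ∧ (∀ q : ℕ, q.Prime → q ∣ a → q ∈ π) ∧
      (∀ q : ℕ, q.Prime → q ∣ b → q ∉ π) := by
  revert hn
  refine Nat.recOnPosPrimePosCoprime (motive := fun n => 0 < n → ∃ a b : ℕ, a * b = n ∧
      Nat.Coprime a b ∧ (∀ q : ℕ, q.Prime → q ∣ a → q ∈ π) ∧
      (∀ q : ℕ, q.Prime → q ∣ b → q ∉ π)) ?_ ?_ ?_ ?_ n
  · intro p k hp _ _
    by_cases hpπ : p ∈ π
    · refine ⟨p ^ k, 1, by simp, by simp, ?_, ?_⟩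
      · intro q hq hdvd
        have := (Nat.prime_dvd_prime_iff_eq hq hp).mp (hq.dvd_of_dvd_pow hdvd)
        rw [this]; exact hpπ
      · intro q hq hdvd
        exact absurd (Nat.dvd_one.mp hdvd) hq.ne_one
    · refine ⟨1, p ^ k, by simp, by simp, ?_, ?_⟩
      · intro q hq hdvd
        exact absurd (Nat.dvd_one.mp hdvd) hq.ne_one
      · intro q hq hdvd
        have := (Nat.prime_dvd_prime_iff_eq hq hp).mp (hq.dvd_of_dvd_pow hdvd)
        rw [this]; exact hpπ
  · intro h; exact absurd h (lt_irrefl 0)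
  · intro _
    refine ⟨1, 1, rfl, by simp, ?_, ?_⟩
    · intro q hq hdvd
      exact absurd (Nat.dvd_one.mp hdvd) hq.ne_one
    · intro q hq hdvd
      exact absurd (Nat.dvd_one.mp hdvd) hq.ne_one
  · intro a b ha hb hab iha ihb _
    obtain ⟨a₁, b₁, h1, hc1, hπ1, hπ1'⟩ := iha (by omega)
    obtain ⟨a₂, b₂, h2, hc2, hπ2, hπ2'⟩ := ihb (by omega)
    have d1 : a₁ ∣ a := Dvd.intro _ h1
    have d1' : b₁ ∣ a := Dvd.intro_left _ h1
    have d2 : a₂ ∣ b := Dvd.intro _ h2
    have d2' : b₂ ∣ b := Dvd.intro_left _ h2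
    refine ⟨a₁ * a₂, b₁ * b₂, by rw [← h1, ← h2]; ring, ?_, ?_, ?_⟩
    · rw [Nat.coprime_mul_iff_left, Nat.coprime_mul_iff_right, Nat.coprime_mul_iff_right]
      exact ⟨⟨hc1, Nat.Coprime.coprime_dvd_left d1 (Nat.Coprime.coprime_dvd_right d2' hab)⟩,
        ⟨(Nat.Coprime.coprime_dvd_left d1' (Nat.Coprime.coprime_dvd_right d2 hab)).symm, hc2⟩⟩
    · intro q hq hdvd
      rcases (Nat.Prime.dvd_mul hq).mp hdvd with h | h
      · exact hπ1 q hq h
      · exact hπ2 q hq h
    · intro q hq hdvd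
      rcases (Nat.Prime.dvd_mul hq).mp hdvd with h | h
      · exact hπ1' q hq h
      · exact hπ2' q hq h

/-- Every element of finite order is the product of a `π`-element and a `π'`-element, both
powers of it. -/
theorem exists_pi_parts {G : Type*} [Group G] (π : Set ℕ) (m : G) (hm : IsOfFinOrder m) :
    ∃ u v : G, u ∈ Subgroup.zpowers m ∧ v ∈ Subgroup.zpowers m ∧ u * v = m ∧ IsPiElt π u ∧
      (∀ q : ℕ, q.Prime → q ∣ orderOf v → q ∉ π) := by
  obtain ⟨a, b, hab, hcop, ha, hb⟩ := exists_pi_decomp π (orderOf m) hm.orderOf_pos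
  have hbez : (a : ℤ) * Nat.gcdA a b + (b : ℤ) * Nat.gcdB a b = 1 := by
    rw [← Nat.gcd_eq_gcd_ab, Nat.Coprime.gcd_eq_one hcop]; rfl
  refine ⟨m ^ ((b : ℤ) * Nat.gcdB a b), m ^ ((a : ℤ) * Nat.gcdA a b),
    Subgroup.mem_zpowers_iff.mpr ⟨_, rfl⟩, Subgroup.mem_zpowers_iff.mpr ⟨_, rfl⟩, ?_, ?_, ?_⟩
  · rw [← zpow_add, add_comm, hbez, zpow_one]
  · have hu : (m ^ ((b : ℤ) * Nat.gcdB a b)) ^ a = 1 := by
      rw [← zpow_natCast, ← zpow_mul]
      have : (b : ℤ) * Nat.gcdB a b * (a : ℤ) = ((a * b : ℕ) : ℤ) * Nat.gcdB a b := by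
        push_cast; ring
      rw [this, hab, zpow_mul, zpow_natCast, pow_orderOf_eq_one, one_zpow]
    have hdvd := orderOf_dvd_of_pow_eq_one hu
    intro q hq hqd
    exact ha q hq (hqd.trans hdvd)
  · have hv : (m ^ ((a : ℤ) * Nat.gcdA a b)) ^ b = 1 := by
      rw [← zpow_natCast, ← zpow_mul]
      have : (a : ℤ) * Nat.gcdA a b * (b : ℤ) = ((a * b : ℕ) : ℤ) * Nat.gcdA a b := by
        push_cast; ring
      rw [this, hab, zpow_mul, zpow_natCast, pow_orderOf_eq_one, one_zpow]
    have hdvd := orderOf_dvd_of_pow_eq_one hv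
    intro q hq hqd
    exact hb q hq (hqd.trans hdvd)

/-- Uniqueness of the decomposition into commuting `π`- and `π'`-parts. -/
theorem pi_decomp_unique {G : Type*} [Group G] (π : Set ℕ) (y v y' v' : G)
    (hy : IsPiElt π y) (hy' : IsPiElt π y')
    (hv : ∀ q : ℕ, q.Prime → q ∣ orderOf v → q ∉ π)
    (hv' : ∀ q : ℕ, q.Prime → q ∣ orderOf v' → q ∉ π)
    (hc : Commute y v) (hc' : Commute y' v') (h : y * v = y' * v') : y = y' ∧ v = v' := by
  set α := orderOf y * orderOf y' with hα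
  set β := orderOf v * orderOf v' with hβ
  have hcop : Nat.Coprime α β := by
    apply Nat.coprime_of_dvd
    intro k hk hkα hkβ
    have h1 : k ∈ π := by
      rcases (Nat.Prime.dvd_mul hk).mp hkα with h | h
      · exact hy k hk h
      · exact hy' k hk h
    rcases (Nat.Prime.dvd_mul hk).mp hkβ with h | h
    · exact hv k hk h h1
    · exact hv' k hk h h1
  have hbez : (α : ℤ) * Nat.gcdA α β + (β : ℤ) * Nat.gcdB α β = 1 := by
    rw [← Nat.gcd_eq_gcd_ab, Nat.Coprime.gcd_eq_one hcop]; rfl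
  have key : ∀ (y v : G), Commute y v → orderOf y ∣ α → orderOf v ∣ β →
      (y * v) ^ ((β : ℤ) * Nat.gcdB α β) = y := by
    intro y v hc hyα hvβ
    rw [hc.mul_zpow]
    have hvk : v ^ ((β : ℤ) * Nat.gcdB α β) = 1 := by
      rw [← orderOf_dvd_iff_zpow_eq_one]
      exact Dvd.dvd.mul_right (Int.natCast_dvd_natCast.mpr hvβ) _
    have hyk : y ^ ((β : ℤ) * Nat.gcdB α β) = y := by
      have e : (β : ℤ) * Nat.gcdB α β = 1 - (α : ℤ) * Nat.gcdA α β := by linarith
      rw [e, zpow_sub, zpow_one]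
      have : y ^ ((α : ℤ) * Nat.gcdA α β) = 1 := by
        rw [← orderOf_dvd_iff_zpow_eq_one]
        exact Dvd.dvd.mul_right (Int.natCast_dvd_natCast.mpr hyα) _
      rw [this, inv_one, mul_one]
    rw [hvk, hyk, mul_one]
  have e1 := key y v hc (Dvd.intro _ rfl) (Dvd.intro _ rfl)
  have e2 := key y' v' hc' (Dvd.intro_left _ rfl) (Dvd.intro_left _ rfl)
  have hyy : y = y' := by rw [← e1, ← e2, h]
  refine ⟨hyy, ?_⟩
  rw [hyy] at h
  exact mul_left_cancel h

open Classical in
/-- The `π`-part of an element (of finite order). -/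
noncomputable def piPart {G : Type*} [Group G] (π : Set ℕ) (m : G) : G :=
  if h : IsOfFinOrder m then Classical.choose (exists_pi_parts π m h) else 1

open Classical in
/-- The `π'`-part of an element (of finite order). -/
noncomputable def piPrimePart {G : Type*} [Group G] (π : Set ℕ) (m : G) : G :=
  if h : IsOfFinOrder m then Classical.choose (Classical.choose_spec (exists_pi_parts π m h)) else m

theorem piPart_spec {G : Type*} [Group G] [Finite G] (π : Set ℕ) (m : G) :
    piPart π m ∈ Subgroup.zpowers m ∧ piPrimePart π m ∈ Subgroup.zpowers m ∧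
      piPart π m * piPrimePart π m = m ∧ IsPiElt π (piPart π m) ∧
      (∀ q : ℕ, q.Prime → q ∣ orderOf (piPrimePart π m) → q ∉ π) := by
  have h : IsOfFinOrder m := isOfFinOrder_of_finite m
  unfold piPart piPrimePart
  rw [dif_pos h, dif_pos h]
  exact Classical.choose_spec (Classical.choose_spec (exists_pi_parts π m h))

open Classical in
/-- Chosen representative of a coset `q` commuting with `c` (if one exists). -/
noncomputable def commRep {G : Type*} [Group G] (N : Subgroup G) [N.Normal] (c : G)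
    (q : G ⧸ N) : G :=
  if h : ∃ g₀ : G, (QuotientGroup.mk g₀ : G ⧸ N) = q ∧ Commute g₀ c then Classical.choose h else 1

theorem commRep_spec {G : Type*} [Group G] (N : Subgroup G) [N.Normal] (c : G) (q : G ⧸ N)
    (h : ∃ g₀ : G, (QuotientGroup.mk g₀ : G ⧸ N) = q ∧ Commute g₀ c) :
    (QuotientGroup.mk (commRep N c q) : G ⧸ N) = q ∧ Commute (commRep N c q) c := by
  unfold commRep
  rw [dif_pos h]
  exact Classical.choose_spec h

/-- The key counting inequality for commuting pairs with first entry a `π`-element. -/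
theorem card_pi_comm_pairs_le {G : Type*} [Group G] [Finite G] (N : Subgroup G) [N.Normal]
    (π : Set ℕ) :
    Nat.card {p : G × G // IsPiElt π p.1 ∧ Commute p.1 p.2} ≤
      Nat.card {p : N × N // IsPiElt π p.1 ∧ Commute p.1 p.2} *
      Nat.card {p : (G ⧸ N) × (G ⧸ N) // IsPiElt π p.1 ∧ Commute p.1 p.2} := by
  classical
  rw [← Nat.card_prod]
  let mOf : G × G → G := fun p => (commRep N p.1 (QuotientGroup.mk p.2))⁻¹ * p.2
  let uOf : G × G → G := fun p => piPart π (mOf p)
  let vOf : G × G → G := fun p => piPrimePart π (mOf p)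
  let g'Of : G × G → G := fun p => p.1 * vOf p
  let m'Of : G × G → G := fun p => (commRep N (uOf p) (QuotientGroup.mk p.1))⁻¹ * g'Of p
  have facts : ∀ p : G × G, IsPiElt π p.1 → Commute p.1 p.2 →
      mOf p ∈ N ∧ Commute p.1 (mOf p) ∧ p.2 = commRep N p.1 (QuotientGroup.mk p.2) * mOf p ∧
      uOf p ∈ N ∧ vOf p ∈ N ∧ uOf p * vOf p = mOf p ∧ IsPiElt π (uOf p) ∧
      (∀ q : ℕ, q.Prime → q ∣ orderOf (vOf p) → q ∉ π) ∧ Commute p.1 (vOf p) ∧
      m'Of p ∈ N ∧ Commute (uOf p) (m'Of p) ∧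
      g'Of p = commRep N (uOf p) (QuotientGroup.mk p.1) * m'Of p := by
    rintro ⟨g, h⟩ hπ hc
    simp only at hπ hc
    have hex : ∃ g₀ : G, (QuotientGroup.mk g₀ : G ⧸ N) = QuotientGroup.mk h ∧ Commute g₀ g :=
      ⟨h, rfl, hc.symm⟩
    obtain ⟨hr1, hr2⟩ := commRep_spec N g (QuotientGroup.mk h) hex
    have hmN : mOf (g, h) ∈ N := QuotientGroup.eq.mp hr1
    have hgm : Commute g (mOf (g, h)) := (hr2.symm.inv_right).mul_right hc
    obtain ⟨hu, hv, huv, huπ, hvπ⟩ := piPart_spec π (mOf (g, h))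
    have huN : uOf (g, h) ∈ N := (Subgroup.zpowers_le.mpr hmN) hu
    have hvN : vOf (g, h) ∈ N := (Subgroup.zpowers_le.mpr hmN) hv
    obtain ⟨ku, hku⟩ := Subgroup.mem_zpowers_iff.mp hu
    obtain ⟨kv, hkv⟩ := Subgroup.mem_zpowers_iff.mp hv
    have hgu : Commute g (uOf (g, h)) := by
      show Commute g (piPart π (mOf (g, h)))
      rw [← hku]; exact hgm.zpow_right ku
    have hgv : Commute g (vOf (g, h)) := by
      show Commute g (piPrimePart π (mOf (g, h)))
      rw [← hkv]; exact hgm.zpow_right kv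
    have hvu : Commute (vOf (g, h)) (uOf (g, h)) := by
      show Commute (piPrimePart π (mOf (g, h))) (piPart π (mOf (g, h)))
      rw [← hku, ← hkv]
      exact ((Commute.refl (mOf (g, h))).zpow_right ku).zpow_left kv
    have hg'q : (QuotientGroup.mk (g'Of (g, h)) : G ⧸ N) = QuotientGroup.mk g := by
      apply QuotientGroup.eq.mpr
      show (g * vOf (g, h))⁻¹ * g ∈ N
      have : (g * vOf (g, h))⁻¹ * g = (vOf (g, h))⁻¹ := by group
      rw [this]
      exact N.inv_mem hvN
    have hex2 : ∃ g₀ : G, (QuotientGroup.mk g₀ : G ⧸ N) = QuotientGroup.mk g ∧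
        Commute g₀ (uOf (g, h)) := ⟨g'Of (g, h), hg'q, hgu.mul_left hvu⟩
    obtain ⟨hs1, hs2⟩ := commRep_spec N (uOf (g, h)) (QuotientGroup.mk g) hex2
    have hm'N : m'Of (g, h) ∈ N := QuotientGroup.eq.mp (hs1.trans hg'q.symm)
    have hum' : Commute (uOf (g, h)) (m'Of (g, h)) :=
      (hs2.symm.inv_right).mul_right (hgu.mul_left hvu).symm
    refine ⟨hmN, hgm, ?_, huN, hvN, huv, huπ, hvπ, hgv, hm'N, hum', ?_⟩
    · show h = commRep N g (QuotientGroup.mk h) * ((commRep N g (QuotientGroup.mk h))⁻¹ * h)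
      group
    · show g'Of (g, h) = commRep N (uOf (g, h)) (QuotientGroup.mk g) *
        ((commRep N (uOf (g, h)) (QuotientGroup.mk g))⁻¹ * g'Of (g, h))
      group
  -- the injection
  let Φ : {p : G × G // IsPiElt π p.1 ∧ Commute p.1 p.2} →
      {p : N × N // IsPiElt π p.1 ∧ Commute p.1 p.2} ×
      {p : (G ⧸ N) × (G ⧸ N) // IsPiElt π p.1 ∧ Commute p.1 p.2} := fun x =>
    (⟨(⟨uOf x.1, (facts x.1 x.2.1 x.2.2).2.2.2.1⟩,
        ⟨m'Of x.1, (facts x.1 x.2.1 x.2.2).2.2.2.2.2.2.2.2.2.1⟩),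
      ⟨by
        intro q hq hdvd
        rw [Subgroup.orderOf_mk] at hdvd
        exact (facts x.1 x.2.1 x.2.2).2.2.2.2.2.2.1 q hq hdvd,
       by
        have := (facts x.1 x.2.1 x.2.2).2.2.2.2.2.2.2.2.2.2.1
        exact Subtype.ext this⟩⟩,
     ⟨(QuotientGroup.mk x.1.1, QuotientGroup.mk x.1.2),
      ⟨by
        intro q hq hdvd
        exact x.2.1 q hq (hdvd.trans (orderOf_map_dvd (QuotientGroup.mk' N) x.1.1)),
       x.2.2.map (QuotientGroup.mk' N)⟩⟩)
  refine Nat.card_le_card_of_injective Φ ?_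
  rintro ⟨⟨g₁, h₁⟩, hπ₁, hc₁⟩ ⟨⟨g₂, h₂⟩, hπ₂, hc₂⟩ hΦ
  have f₁ := facts (g₁, h₁) hπ₁ hc₁
  have f₂ := facts (g₂, h₂) hπ₂ hc₂
  have e1 := congrArg Prod.fst hΦ
  have e2 := congrArg Prod.snd hΦ
  have eu : uOf (g₁, h₁) = uOf (g₂, h₂) :=
    congrArg (fun z : {p : N × N // IsPiElt π p.1 ∧ Commute p.1 p.2} => ((z.1.1 : N) : G)) e1
  have em' : m'Of (g₁, h₁) = m'Of (g₂, h₂) :=
    congrArg (fun z : {p : N × N // IsPiElt π p.1 ∧ Commute p.1 p.2} => ((z.1.2 : N) : G)) e1
  have eg : (QuotientGroup.mk g₁ : G ⧸ N) = QuotientGroup.mk g₂ :=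
    congrArg (fun z : {p : (G ⧸ N) × (G ⧸ N) // IsPiElt π p.1 ∧ Commute p.1 p.2} => z.1.1) e2
  have eh : (QuotientGroup.mk h₁ : G ⧸ N) = QuotientGroup.mk h₂ :=
    congrArg (fun z : {p : (G ⧸ N) × (G ⧸ N) // IsPiElt π p.1 ∧ Commute p.1 p.2} => z.1.2) e2
  -- g' equal
  have eg' : g'Of (g₁, h₁) = g'Of (g₂, h₂) := by
    rw [f₁.2.2.2.2.2.2.2.2.2.2.2, f₂.2.2.2.2.2.2.2.2.2.2.2, eu, em']
    show commRep N (uOf (g₂, h₂)) (QuotientGroup.mk g₁) * _ =
      commRep N (uOf (g₂, h₂)) (QuotientGroup.mk g₂) * _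
    rw [eg]
  have hgv : g₁ = g₂ ∧ vOf (g₁, h₁) = vOf (g₂, h₂) :=
    pi_decomp_unique π g₁ (vOf (g₁, h₁)) g₂ (vOf (g₂, h₂)) hπ₁ hπ₂
      f₁.2.2.2.2.2.2.2.1 f₂.2.2.2.2.2.2.2.1 f₁.2.2.2.2.2.2.2.2.1 f₂.2.2.2.2.2.2.2.2.1 eg'
  obtain ⟨hg, hv⟩ := hgv
  have emm : mOf (g₁, h₁) = mOf (g₂, h₂) := by
    rw [← f₁.2.2.2.2.2.1, ← f₂.2.2.2.2.2.1, eu, hv]
  have hh : h₁ = h₂ := by
    have a1 := f₁.2.2.1
    have a2 := f₂.2.2.1
    simp only at a1 a2
    rw [a1, a2, emm, hg, eh]
  subst hg
  subst hh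
  rfl

/-- **`k_π(G) ≤ k_π(N) k_π(G/N)`** for the numbers of conjugacy classes of `π`-elements. -/
theorem card_pi_classes_le {G : Type*} [Group G] [Finite G] (N : Subgroup G) [N.Normal]
    (π : Set ℕ) :
    Nat.card {C : ConjClasses G // ∀ x : G, ConjClasses.mk x = C → IsPiElt π x} ≤
      Nat.card {C : ConjClasses N // ∀ x : N, ConjClasses.mk x = C → IsPiElt π x} *
      Nat.card {C : ConjClasses (G ⧸ N) // ∀ x : G ⧸ N, ConjClasses.mk x = C → IsPiElt π x} := by
  have h := card_pi_comm_pairs_le N π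
  rw [card_comm_pairs_eq (IsPiElt π) (fun x g hx => isPiElt_conj π x g hx),
    card_comm_pairs_eq (IsPiElt π) (fun x g hx => isPiElt_conj π x g hx),
    card_comm_pairs_eq (IsPiElt π) (fun x g hx => isPiElt_conj π x g hx)] at h
  have hcard : Nat.card G = Nat.card N * Nat.card (G ⧸ N) := by
    rw [mul_comm]; exact Subgroup.card_eq_card_quotient_mul_card_subgroup N
  have hpos : 0 < Nat.card G := Nat.card_pos
  rw [hcard] at h hpos
  have h' : Nat.card {C : ConjClasses G // ∀ x : G, ConjClasses.mk x = C → IsPiElt π x} *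
      (Nat.card N * Nat.card (G ⧸ N)) ≤
      (Nat.card {C : ConjClasses N // ∀ x : N, ConjClasses.mk x = C → IsPiElt π x} *
      Nat.card {C : ConjClasses (G ⧸ N) // ∀ x : G ⧸ N, ConjClasses.mk x = C → IsPiElt π x}) *
      (Nat.card N * Nat.card (G ⧸ N)) := by
    calc _ ≤ _ := h
      _ = _ := by ring
  exact Nat.le_of_mul_le_mul_right h' hpos

/-- Two ways of saying that a class consists of `π`-elements. -/
theorem card_pi_classes_form (G : Type*) [Group G] (π : Set ℕ) :
    Nat.card {C : ConjClasses G // ∀ q : ℕ, q.Prime →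
      (∃ g : G, ConjClasses.mk g = C ∧ q ∣ orderOf g) → q ∈ π} =
    Nat.card {C : ConjClasses G // ∀ x : G, ConjClasses.mk x = C → IsPiElt π x} := by
  apply Nat.card_congr
  refine Equiv.subtypeEquivRight ?_
  intro C
  constructor
  · intro h x hx q hq hd
    exact h q hq ⟨x, hx, hd⟩
  · rintro h q hq ⟨g, hg, hd⟩
    exact h g hg q hq hd

end Cfsg.Agent.Helper69
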