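import Cfsg.Agent.Helper32.PSolvable
import Mathlib.GroupTheory.SchurZassenhaus

set_option autoImplicit false

/-!
Existence of Hall `p'`-subgroups (`p`-complements) in finite `p`-solvable groups.
-/

namespace Cfsg.Agent.Helper69

universe u

theorem exists_pComplement_aux (p : ℕ) (hp : p.Prime) :
    ∀ n : ℕ, ∀ (G : Type u) [Group G] [Finite G], Nat.card G = n → Cfsg.IsPSolvable p G →
      ∃ Q : Subgroup G, (Nat.card Q).Coprime p ∧ ∃ j : ℕ, Nat.card G = Nat.card Q * p ^ j := by
  intro n
  induction n using Nat.strong_induction_on with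
  | _ n ih =>
    intro G _ _ hn hsol
    have hpf : Fact p.Prime := ⟨hp⟩
    by_cases htriv : (⊤ : Subgroup G) = ⊥
    · refine ⟨⊤, ?_, 0, ?_⟩
      · rw [htriv, Subgroup.card_bot]; exact Nat.coprime_one_left p
      · rw [Subgroup.card_top, pow_zero, mul_one]
    · obtain ⟨D, hDn, -, hDne, hD⟩ :=
        Cfsg.Agent.Helper32.exists_normal_le_of_isPSolvable hp hsol ⊤ htriv
      have hDcard : 1 < Nat.card D := by
        rw [Subgroup.one_lt_card_iff_ne_bot]; exact hDne
      have hGD : Nat.card G = Nat.card (G ⧸ D) * Nat.card D :=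
        Subgroup.card_eq_card_quotient_mul_card_subgroup D
      have hpos : 0 < Nat.card (G ⧸ D) := Nat.card_pos
      have hlt : Nat.card (G ⧸ D) < n := by
        rw [← hn, hGD]
        nlinarith
      obtain ⟨Qb, hQb, j, hj⟩ := ih _ hlt (G ⧸ D) rfl
        (Cfsg.Agent.Helper32.isPSolvable_quotient hp hsol D)
      let Q₁ : Subgroup G := Qb.comap (QuotientGroup.mk' D)
      have hidx : Q₁.index = Qb.index :=
        Subgroup.index_comap_of_surjective Qb (QuotientGroup.mk'_surjective D)
      have hQbidx : Qb.index = p ^ j := by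
        have h1 := Subgroup.card_mul_index Qb
        rw [hj] at h1
        exact Nat.eq_of_mul_eq_mul_left Nat.card_pos h1
      have hQ₁card : Nat.card Q₁ = Nat.card Qb * Nat.card D := by
        have h1 := Subgroup.card_mul_index Q₁
        rw [hidx, hGD, hj, hQbidx] at h1
        have h2 : Nat.card Q₁ * p ^ j = (Nat.card Qb * Nat.card D) * p ^ j := by
          rw [h1]; ring
        exact Nat.eq_of_mul_eq_mul_right (pow_pos hp.pos j) h2
      rcases hD with hDp | hDp'
      · -- `D` is a `p`-group: split `Q₁` over `D`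
        have hDle : D ≤ Q₁ := by
          intro x hx
          show (QuotientGroup.mk' D x) ∈ Qb
          rw [QuotientGroup.mk'_apply, (QuotientGroup.eq_one_iff x).mpr hx]
          exact Qb.one_mem
        obtain ⟨a, ha⟩ := IsPGroup.iff_card.mp hDp
        have hNcard : Nat.card (D.subgroupOf Q₁) = Nat.card D :=
          Nat.card_congr (Subgroup.subgroupOfEquivOfLe hDle).toEquiv
        have hNidx : (D.subgroupOf Q₁).index = Nat.card Qb := by
          have h1 := Subgroup.card_mul_index (D.subgroupOf Q₁)
          rw [hNcard, hQ₁card, mul_comm] at h1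
          exact Nat.eq_of_mul_eq_mul_right Nat.card_pos h1
        have hcop : Nat.Coprime (Nat.card (D.subgroupOf Q₁)) (D.subgroupOf Q₁).index := by
          rw [hNcard, hNidx, ha]
          exact Nat.Coprime.pow_left a (Nat.Coprime.symm hQb)
        obtain ⟨K, hK⟩ := Subgroup.exists_right_complement'_of_coprime hcop
        have hKcard : Nat.card K = Nat.card Qb := by
          have h1 := hK.card_mul_card
          rw [hNcard, hQ₁card, mul_comm] at h1
          exact Nat.eq_of_mul_eq_mul_right Nat.card_pos h1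
        refine ⟨K.map Q₁.subtype, ?_, j + a, ?_⟩
        · rw [Subgroup.card_map_of_injective Q₁.subtype_injective, hKcard]; exact hQb
        · rw [Subgroup.card_map_of_injective Q₁.subtype_injective, hKcard, hGD, hj, ha]
          ring
      · refine ⟨Q₁, ?_, j, ?_⟩
        · rw [hQ₁card]; exact Nat.Coprime.mul_left hQb hDp'
        · rw [hGD, hj, hQ₁card]; ring

/-- A finite `p`-solvable group has a Hall `p'`-subgroup. -/
theorem exists_pComplement {p : ℕ} (hp : p.Prime) {G : Type u} [Group G] [Finite G]
    (h : Cfsg.IsPSolvable p G) :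
    ∃ Q : Subgroup G, (Nat.card Q).Coprime p ∧ ∃ j : ℕ, Nat.card G = Nat.card Q * p ^ j :=
  exists_pComplement_aux p hp _ G rfl h

/-- Relative version: a subgroup `S` of a finite `p`-solvable group has a Hall `p'`-subgroup. -/
theorem exists_pComplement_le {p : ℕ} (hp : p.Prime) {G : Type u} [Group G] [Finite G]
    (h : Cfsg.IsPSolvable p G) (S : Subgroup G) :
    ∃ Q : Subgroup G, Q ≤ S ∧ (Nat.card Q).Coprime p ∧ ∃ j : ℕ, Q.index = S.index * p ^ j := by
  obtain ⟨Q₀, hQ₀, j, hj⟩ := exists_pComplement hp (Cfsg.Agent.Helper32.isPSolvable_subgroup hp h S)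
  have hc : Nat.card (Q₀.map S.subtype) = Nat.card Q₀ :=
    Subgroup.card_map_of_injective S.subtype_injective
  refine ⟨Q₀.map S.subtype, Subgroup.map_subtype_le Q₀, ?_, j, ?_⟩
  · rw [hc]; exact hQ₀
  · have h1 := Subgroup.card_mul_index (Q₀.map S.subtype)
    have h2 := Subgroup.card_mul_index S
    rw [hc, ← h2, hj] at h1
    have h3 : Nat.card Q₀ * (Q₀.map S.subtype).index = Nat.card Q₀ * (S.index * p ^ j) := by
      rw [h1]; ring
    exact Nat.eq_of_mul_eq_mul_left Nat.card_pos h3

end Cfsg.Agent.Helper69
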