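/-
helper69: CALL S4415 piece m4c (helper63).
-/
import Cfsg.Prelude.Def_Transfer
import Cfsg.Prelude.Def_Solvable
import Cfsg.Agent.Helper63.N15Defs

set_option autoImplicit false

namespace Cfsg.Agent.Helper69.N15

open Cfsg.Agent.Helper63.N15

variable {G : Type*} [Group G] [Finite G] {V : Type*} [AddCommGroup V] [Module (ZMod 3) V]
  [Finite V] {ρ : Representation (ZMod 3) G V} {R : Subgroup G} {b q₁ q₂ q₃ : G} {v₁ v₂ v₃ : V}

/-- helper: the frame as a function on `Fin 4`. -/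
def frame4 (e₁ e₂ e₃ e₄ : V) : Fin 4 → V := ![e₁, e₂, e₃, e₄]

omit [Finite V] in
theorem frame4_uniq (e₁ e₂ e₃ e₄ : V)
    (hind : ∀ c₁ c₂ c₃ c₄ : ZMod 3, c₁ • e₁ + c₂ • e₂ + c₃ • e₃ + c₄ • e₄ = 0 →
      c₁ = 0 ∧ c₂ = 0 ∧ c₃ = 0 ∧ c₄ = 0) (i j : Fin 4) (s s' : ZMod 3) (hs : s ≠ 0)
    (h : s • frame4 e₁ e₂ e₃ e₄ i = s' • frame4 e₁ e₂ e₃ e₄ j) : i = j ∧ s = s' := by
  classical
  have key : ∀ c : Fin 4 → ZMod 3, ∑ k, c k • frame4 e₁ e₂ e₃ e₄ k = 0 → ∀ k, c k = 0 := by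
    intro c hc
    rw [Fin.sum_univ_four] at hc
    obtain ⟨h1, h2, h3, h4⟩ := hind (c 0) (c 1) (c 2) (c 3) hc
    intro k
    fin_cases k <;> assumption
  have h0 : ∑ k, (Pi.single i s - Pi.single j s' : Fin 4 → ZMod 3) k • frame4 e₁ e₂ e₃ e₄ k = 0 := by
    simp only [Pi.sub_apply, sub_smul, Finset.sum_sub_distrib]
    rw [Finset.sum_eq_single i, Finset.sum_eq_single j]
    · simp [h]
    · intro k _ hk; simp [Pi.single_eq_of_ne hk]
    · intro hk; exact absurd (Finset.mem_univ _) hk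
    · intro k _ hk; simp [Pi.single_eq_of_ne hk]
    · intro hk; exact absurd (Finset.mem_univ _) hk
  have h1 := key _ h0
  by_cases hij : i = j
  · subst hij
    refine ⟨rfl, ?_⟩
    have := h1 i
    simp at this
    exact sub_eq_zero.1 this
  · exfalso
    have := h1 i
    simp [Pi.single_eq_of_ne hij] at this
    exact hs this


/-- M4c. `|R| = 32` and the diagonal subgroup `D` is elementary abelian of order `8`. -/
theorem m4c (c : Cfg ρ R b q₁ q₂ q₃ v₁ v₂ v₃) (e₁ e₂ e₃ e₄ : V)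
    (h : Mono4 ρ b e₁ e₂ e₃ e₄)
    (ha : ∀ r ∈ R, (∀ e ∈ ({e₁, e₂, e₃, e₄} : Set V), ρ r e = e ∨ ρ r e = -e) ∨
      (∀ e ∈ ({e₁, e₂, e₃, e₄} : Set V), ρ r e ≠ e ∧ ρ r e ≠ -e ∧
        (ρ r (ρ r e) = e ∨ ρ r (ρ r e) = -e)))
    (hd4 : ∀ g : G, Det4 ρ g e₁ e₂ e₃ e₄)
    (hb : (∃ z ∈ R, ∀ v : V, ρ z v = -v) ∧
      ∃ d ∈ R, ρ d e₁ = -e₁ ∧ ρ d e₂ = -e₂ ∧ ρ d e₃ = e₃ ∧ ρ d e₄ = e₄)
    (hfq : ∀ g : G, ∃ r ∈ R, g = r ∨ g = r * b ∨ g = r * (b * b)) :
    Nat.card R = 32 ∧ ∃ A : Subgroup G, A ≤ R ∧ (∀ a ∈ A, ∀ a' ∈ A, a * a' = a' * a) ∧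
      (∀ a ∈ A, a ^ 2 = 1) ∧ Nat.card A = 8 := by
  classical
  obtain ⟨hsp, hind, hmono, htrans, hb1, hb2, hb3, hb4⟩ := h
  set E : Fin 4 → V := frame4 e₁ e₂ e₃ e₄ with hE
  have E0 : E 0 = e₁ := rfl
  have E1 : E 1 = e₂ := rfl
  have E2 : E 2 = e₃ := rfl
  have E3 : E 3 = e₄ := rfl
  have hmemE : ∀ i, E i ∈ ({e₁, e₂, e₃, e₄} : Set V) := by
    intro i; fin_cases i <;> simp [hE, frame4]
  have hofmem : ∀ e ∈ ({e₁, e₂, e₃, e₄} : Set V), ∃ i, e = E i := by
    intro e he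
    simp only [Set.mem_insert_iff, Set.mem_singleton_iff] at he
    rcases he with rfl | rfl | rfl | rfl
    exacts [⟨0, rfl⟩, ⟨1, rfl⟩, ⟨2, rfl⟩, ⟨3, rfl⟩]
  have uniq := frame4_uniq e₁ e₂ e₃ e₄ hind
  have hneg : ∀ i, E i ≠ -E i := by
    intro i hi
    have h1 : (1 : ZMod 3) • E i = (-1 : ZMod 3) • E i := by rw [one_smul, neg_one_smul]; exact hi
    have := (uniq i i 1 (-1) one_ne_zero h1).2
    revert this; decide
  have hmono' : ∀ g : G, ∀ i, ∃ j, ρ g (E i) = E j ∨ ρ g (E i) = -E j := by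
    intro g i
    obtain ⟨e', he', hh⟩ := hmono g (E i) (hmemE i)
    obtain ⟨j, rfl⟩ := hofmem e' he'
    exact ⟨j, hh⟩
  have hinv : ∀ (x : G) (v : V), ρ x⁻¹ (ρ x v) = v := by
    intro x v
    rw [← Module.End.mul_apply, ← map_mul, inv_mul_cancel, map_one, Module.End.one_apply]
  have hext : ∀ g g' : G, (∀ i, ρ g (E i) = ρ g' (E i)) → g = g' := by
    intro g g' hgg
    have hv : ∀ v, ρ g v = ρ g' v := by
      intro v
      obtain ⟨c₁, c₂, c₃, c₄, rfl⟩ := hsp v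
      have h0 := hgg 0; have h1 := hgg 1; have h2 := hgg 2; have h3 := hgg 3
      rw [E0] at h0; rw [E1] at h1; rw [E2] at h2; rw [E3] at h3
      simp only [map_add, map_smul, h0, h1, h2, h3]
    have h1 : g⁻¹ * g' = 1 := by
      apply c.faith
      intro v
      rw [map_mul, Module.End.mul_apply, ← hv, hinv]
    exact inv_mul_eq_one.1 h1
  -- the diagonal subgroup
  let A : Subgroup G :=
    { carrier := {g | g ∈ R ∧ ∀ i, ρ g (E i) = E i ∨ ρ g (E i) = -E i}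
      mul_mem' := by
        rintro x y ⟨hx, hx'⟩ ⟨hy, hy'⟩
        refine ⟨R.mul_mem hx hy, fun i => ?_⟩
        rw [map_mul, Module.End.mul_apply]
        rcases hy' i with h1 | h1 <;> rcases hx' i with h2 | h2 <;> simp [h1, h2]
      one_mem' := ⟨R.one_mem, fun i => by simp⟩
      inv_mem' := by
        rintro x ⟨hx, hx'⟩
        refine ⟨R.inv_mem hx, fun i => ?_⟩
        rcases hx' i with h1 | h1
        · left; have := hinv x (E i); rw [h1] at this; exact this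
        · right; have := hinv x (E i); rw [h1, map_neg] at this
          exact neg_eq_iff_eq_neg.1 this }
  have memA : ∀ g, g ∈ A ↔ g ∈ R ∧ ∀ i, ρ g (E i) = E i ∨ ρ g (E i) = -E i := fun g => Iff.rfl
  have hAR : A ≤ R := fun g hg => hg.1
  have hAcomm : ∀ a ∈ A, ∀ a' ∈ A, a * a' = a' * a := by
    rintro a ⟨_, ha'⟩ a' ⟨_, ha''⟩
    apply hext
    intro i
    rw [map_mul, map_mul, Module.End.mul_apply, Module.End.mul_apply]
    rcases ha' i with h1 | h1 <;> rcases ha'' i with h2 | h2 <;> simp [h1, h2]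
  have hAsq : ∀ a ∈ A, a ^ 2 = 1 := by
    rintro a ⟨_, ha'⟩
    apply hext
    intro i
    rw [pow_two, map_mul, Module.End.mul_apply, map_one, Module.End.one_apply]
    rcases ha' i with h1 | h1 <;> simp [h1]
  -- equality of diagonal elements from the first three signs
  have hdiag_eq : ∀ g g' : G, g ∈ A → g' ∈ A → ρ g e₁ = ρ g' e₁ → ρ g e₂ = ρ g' e₂ →
      ρ g e₃ = ρ g' e₃ → g = g' := by
    rintro g g' ⟨_, hg⟩ ⟨_, hg'⟩ h1 h2 h3
    have hs : ∀ (x : G), (∀ i, ρ x (E i) = E i ∨ ρ x (E i) = -E i) → ∀ i,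
        ∃ ε : ZMod 3, ρ x (E i) = ε • E i := by
      intro x hx i
      rcases hx i with h | h
      · exact ⟨1, by rw [h, one_smul]⟩
      · exact ⟨-1, by rw [h, neg_one_smul]⟩
    obtain ⟨ε₁, he1⟩ := hs g hg 0
    obtain ⟨ε₂, he2⟩ := hs g hg 1
    obtain ⟨ε₃, he3⟩ := hs g hg 2
    obtain ⟨ε₄, he4⟩ := hs g hg 3
    obtain ⟨ε₄', he4'⟩ := hs g' hg' 3
    rw [E0] at he1; rw [E1] at he2; rw [E2] at he3; rw [E3] at he4 he4'
    have p1 := (hd4 g).1 ε₁ ε₂ ε₃ ε₄ he1 he2 he3 he4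
    have p2 := (hd4 g').1 ε₁ ε₂ ε₃ ε₄' (by rw [← h1]; exact he1) (by rw [← h2]; exact he2)
      (by rw [← h3]; exact he3) he4'
    have hne : ε₁ * ε₂ * ε₃ ≠ 0 := left_ne_zero_of_mul_eq_one p1
    have h44 : ε₄ = ε₄' := mul_left_cancel₀ hne (by rw [p1, p2])
    apply hext
    intro i
    fin_cases i
    · exact h1
    · exact h2
    · exact h3
    · show ρ g e₄ = ρ g' e₄
      rw [he4, he4', h44]
  -- the generators
  obtain ⟨⟨z, hzR, hz⟩, d, hdR, hd1, hd2, hd3, hd4'⟩ := hb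
  have hbi1 : ρ b⁻¹ e₂ = e₁ := by have := hinv b e₁; rwa [hb1] at this
  have hbi2 : ρ b⁻¹ e₃ = e₂ := by have := hinv b e₂; rwa [hb2] at this
  have hbi3 : ρ b⁻¹ e₁ = e₃ := by have := hinv b e₃; rwa [hb3] at this
  have hbi4 : ρ b⁻¹ e₄ = e₄ := by have := hinv b e₄; rwa [hb4] at this
  have hd'R : b * d * b⁻¹ ∈ R := c.Rn.conj_mem d hdR b
  have hd'1 : ρ (b * d * b⁻¹) e₁ = e₁ := by
    simp [map_mul, hbi3, hd3, hb3]
  have hd'2 : ρ (b * d * b⁻¹) e₂ = -e₂ := by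
    simp [map_mul, hbi1, hd1, hb1]
  have hd'3 : ρ (b * d * b⁻¹) e₃ = -e₃ := by
    simp [map_mul, hbi2, hd2, hb2]
  have hd'4 : ρ (b * d * b⁻¹) e₄ = e₄ := by
    simp [map_mul, hbi4, hd4', hb4]
  -- α = (-,+,+,-), β = (+,-,+,-), γ = (+,+,-,-)
  have hα1 : ρ (z * (b * d * b⁻¹)) e₁ = -e₁ := by rw [map_mul, Module.End.mul_apply, hd'1, hz]
  have hα2 : ρ (z * (b * d * b⁻¹)) e₂ = e₂ := by
    rw [map_mul, Module.End.mul_apply, hd'2, hz, neg_neg]
  have hα3 : ρ (z * (b * d * b⁻¹)) e₃ = e₃ := by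
    rw [map_mul, Module.End.mul_apply, hd'3, hz, neg_neg]
  have hα4 : ρ (z * (b * d * b⁻¹)) e₄ = -e₄ := by rw [map_mul, Module.End.mul_apply, hd'4, hz]
  have hγ1 : ρ (z * d) e₁ = e₁ := by rw [map_mul, Module.End.mul_apply, hd1, hz, neg_neg]
  have hγ2 : ρ (z * d) e₂ = e₂ := by rw [map_mul, Module.End.mul_apply, hd2, hz, neg_neg]
  have hγ3 : ρ (z * d) e₃ = -e₃ := by rw [map_mul, Module.End.mul_apply, hd3, hz]
  have hγ4 : ρ (z * d) e₄ = -e₄ := by rw [map_mul, Module.End.mul_apply, hd4', hz]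
  have hβ1 : ρ (z * d * (b * d * b⁻¹)) e₁ = e₁ := by
    rw [map_mul, Module.End.mul_apply, hd'1, hγ1]
  have hβ2 : ρ (z * d * (b * d * b⁻¹)) e₂ = -e₂ := by
    rw [map_mul, Module.End.mul_apply, hd'2, map_neg, hγ2]
  have hβ3 : ρ (z * d * (b * d * b⁻¹)) e₃ = e₃ := by
    rw [map_mul, Module.End.mul_apply, hd'3, map_neg, hγ3, neg_neg]
  have hβ4 : ρ (z * d * (b * d * b⁻¹)) e₄ = -e₄ := by
    rw [map_mul, Module.End.mul_apply, hd'4, hγ4]
  have hαA : z * (b * d * b⁻¹) ∈ A := by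
    refine ⟨R.mul_mem hzR hd'R, fun i => ?_⟩
    fin_cases i
    · right; exact hα1
    · left; exact hα2
    · left; exact hα3
    · right; exact hα4
  have hβA : z * d * (b * d * b⁻¹) ∈ A := by
    refine ⟨R.mul_mem (R.mul_mem hzR hdR) hd'R, fun i => ?_⟩
    fin_cases i
    · left; exact hβ1
    · right; exact hβ2
    · left; exact hβ3
    · right; exact hβ4
  have hγA : z * d ∈ A := by
    refine ⟨R.mul_mem hzR hdR, fun i => ?_⟩
    fin_cases i
    · left; exact hγ1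
    · left; exact hγ2
    · right; exact hγ3
    · right; exact hγ4
  -- the parametrization of `A`
  obtain ⟨α, hαA, hα1, hα2, hα3⟩ : ∃ α, α ∈ A ∧ ρ α e₁ = -e₁ ∧ ρ α e₂ = e₂ ∧ ρ α e₃ = e₃ :=
    ⟨_, hαA, hα1, hα2, hα3⟩
  obtain ⟨β, hβA, hβ1, hβ2, hβ3⟩ : ∃ β, β ∈ A ∧ ρ β e₁ = e₁ ∧ ρ β e₂ = -e₂ ∧ ρ β e₃ = e₃ :=
    ⟨_, hβA, hβ1, hβ2, hβ3⟩
  obtain ⟨γ, hγA, hγ1, hγ2, hγ3⟩ : ∃ γ, γ ∈ A ∧ ρ γ e₁ = e₁ ∧ ρ γ e₂ = e₂ ∧ ρ γ e₃ = -e₃ :=
    ⟨_, hγA, hγ1, hγ2, hγ3⟩
  let fG : Bool × Bool × Bool → G := fun t =>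
    (if t.1 then α else 1) * (if t.2.1 then β else 1) * (if t.2.2 then γ else 1)
  have hfA : ∀ t, fG t ∈ A := by
    intro t
    refine A.mul_mem (A.mul_mem ?_ ?_) ?_
    · split_ifs; exacts [hαA, A.one_mem]
    · split_ifs; exacts [hβA, A.one_mem]
    · split_ifs; exacts [hγA, A.one_mem]
  have hf1 : ∀ t, ρ (fG t) e₁ = if t.1 then -e₁ else e₁ := by
    rintro ⟨t1, t2, t3⟩
    cases t1 <;> cases t2 <;> cases t3 <;> simp [fG, map_mul, hα1, hβ1, hγ1]
  have hf2 : ∀ t, ρ (fG t) e₂ = if t.2.1 then -e₂ else e₂ := by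
    rintro ⟨t1, t2, t3⟩
    cases t1 <;> cases t2 <;> cases t3 <;> simp [fG, map_mul, hα2, hβ2, hγ2]
  have hf3 : ∀ t, ρ (fG t) e₃ = if t.2.2 then -e₃ else e₃ := by
    rintro ⟨t1, t2, t3⟩
    cases t1 <;> cases t2 <;> cases t3 <;> simp [fG, map_mul, hα3, hβ3, hγ3]
  have hn1 : e₁ ≠ -e₁ := hneg 0
  have hn2 : e₂ ≠ -e₂ := hneg 1
  have hn3 : e₃ ≠ -e₃ := hneg 2
  have hcardA : Nat.card A = 8 := by
    have hbij : Function.Bijective (fun t : Bool × Bool × Bool => (⟨fG t, hfA t⟩ : A)) := by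
      constructor
      · rintro ⟨t1, t2, t3⟩ ⟨t1', t2', t3'⟩ ht
        have ht' : fG (t1, t2, t3) = fG (t1', t2', t3') := congrArg Subtype.val ht
        have k1 := hf1 (t1, t2, t3)
        have k2 := hf2 (t1, t2, t3)
        have k3 := hf3 (t1, t2, t3)
        rw [ht', hf1] at k1
        rw [ht', hf2] at k2
        rw [ht', hf3] at k3
        have r1 : t1 = t1' := by
          cases t1 <;> cases t1' <;> simp at k1 ⊢
          · exact hn1 k1.symm
          · exact hn1 k1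
        have r2 : t2 = t2' := by
          cases t2 <;> cases t2' <;> simp at k2 ⊢
          · exact hn2 k2.symm
          · exact hn2 k2
        have r3 : t3 = t3' := by
          cases t3 <;> cases t3' <;> simp at k3 ⊢
          · exact hn3 k3.symm
          · exact hn3 k3
        rw [r1, r2, r3]
      · rintro ⟨a, haA⟩
        refine ⟨(decide (ρ a e₁ = -e₁), decide (ρ a e₂ = -e₂), decide (ρ a e₃ = -e₃)), ?_⟩
        apply Subtype.ext
        show fG _ = a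
        apply hdiag_eq _ _ (hfA _) haA
        · rw [hf1]
          rcases haA.2 0 with h | h
          · have h' : ρ a e₁ = e₁ := h
            simp [h', hn1]
          · have h' : ρ a e₁ = -e₁ := h
            simp [h']
        · rw [hf2]
          rcases haA.2 1 with h | h
          · have h' : ρ a e₂ = e₂ := h
            simp [h', hn2]
          · have h' : ρ a e₂ = -e₂ := h
            simp [h']
        · rw [hf3]
          rcases haA.2 2 with h | h
          · have h' : ρ a e₃ = e₃ := h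
            simp [h', hn3]
          · have h' : ρ a e₃ = -e₃ := h
            simp [h']
    rw [← Nat.card_eq_of_bijective _ hbij]
    simp [Nat.card_eq_fintype_card]
  -- transitivity through `R`
  have hr : ∀ j : Fin 4, ∃ r ∈ R, ρ r e₄ = E j ∨ ρ r e₄ = -E j := by
    intro j
    obtain ⟨g, hg⟩ := htrans (E j) (hmemE j)
    obtain ⟨r, hrR, hgr | hgr | hgr⟩ := hfq g
    · rw [hgr] at hg
      exact ⟨r, hrR, hg⟩
    · refine ⟨r, hrR, ?_⟩
      rwa [hgr, map_mul, Module.End.mul_apply, hb4] at hg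
    · refine ⟨r, hrR, ?_⟩
      rwa [hgr, map_mul, map_mul, Module.End.mul_apply, Module.End.mul_apply, hb4, hb4] at hg
  choose r hrR hr4 using hr
  have hcardR : Nat.card R = 32 := by
    have hbij : Function.Bijective (fun p : Fin 4 × A =>
        (⟨r p.1 * (p.2 : G), R.mul_mem (hrR p.1) (hAR p.2.2)⟩ : R)) := by
      constructor
      · rintro ⟨j, a⟩ ⟨j', a'⟩ hp
        have hp' : r j * (a : G) = r j' * (a' : G) := congrArg Subtype.val hp
        have key : ∀ (j : Fin 4) (a : A), ∃ s : ZMod 3, s ≠ 0 ∧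
            ρ (r j * (a : G)) e₄ = s • E j := by
          intro j a
          rw [map_mul, Module.End.mul_apply]
          rcases a.2.2 3 with h | h <;> rcases hr4 j with h' | h'
          · exact ⟨1, one_ne_zero, by rw [show ρ (a : G) e₄ = e₄ from h, h', one_smul]⟩
          · exact ⟨-1, by decide, by rw [show ρ (a : G) e₄ = e₄ from h, h', neg_one_smul]⟩
          · exact ⟨-1, by decide, by
              rw [show ρ (a : G) e₄ = -e₄ from h, map_neg, h', neg_one_smul]⟩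
          · exact ⟨1, one_ne_zero, by
              rw [show ρ (a : G) e₄ = -e₄ from h, map_neg, h', neg_neg, one_smul]⟩
        obtain ⟨s, hs, h1⟩ := key j a
        obtain ⟨s', hs', h2⟩ := key j' a'
        rw [hp', h2] at h1
        have hjj := (uniq j' j s' s hs' h1).1
        subst hjj
        have haa : (a : G) = a' := mul_left_cancel hp'
        rw [Subtype.ext haa]
      · rintro ⟨x, hxR⟩
        obtain ⟨j, hj⟩ := hmono' x 3
        have haR : (r j)⁻¹ * x ∈ R := R.mul_mem (R.inv_mem (hrR j)) hxR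
        have hri : ρ (r j)⁻¹ (E j) = e₄ ∨ ρ (r j)⁻¹ (E j) = -e₄ := by
          have := hinv (r j) e₄
          rcases hr4 j with h' | h'
          · left; rwa [h'] at this
          · right; rw [h', map_neg] at this; exact neg_eq_iff_eq_neg.1 this
        have h4 : ρ ((r j)⁻¹ * x) e₄ = e₄ ∨ ρ ((r j)⁻¹ * x) e₄ = -e₄ := by
          rw [map_mul, Module.End.mul_apply]
          rcases hj with h | h <;> rcases hri with h' | h'
          · left; rw [show ρ x e₄ = E j from h, h']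
          · right; rw [show ρ x e₄ = E j from h, h']
          · right; rw [show ρ x e₄ = -E j from h, map_neg, h']
          · left; rw [show ρ x e₄ = -E j from h, map_neg, h', neg_neg]
        have hdiag : ∀ i, ρ ((r j)⁻¹ * x) (E i) = E i ∨ ρ ((r j)⁻¹ * x) (E i) = -E i := by
          rcases ha _ haR with hA | hA
          · intro i; exact hA (E i) (hmemE i)
          · exfalso
            have h5 := hA e₄ (by simp)
            rcases h4 with h | h
            · exact h5.1 h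
            · exact h5.2.1 h
        refine ⟨(j, ⟨(r j)⁻¹ * x, haR, hdiag⟩), ?_⟩
        apply Subtype.ext
        show r j * ((r j)⁻¹ * x) = x
        rw [mul_inv_cancel_left]
    rw [← Nat.card_eq_of_bijective _ hbij, Nat.card_prod, hcardA]
    simp
  exact ⟨hcardR, A, hAR, hAcomm, hAsq, hcardA⟩

end Cfsg.Agent.Helper69.N15
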