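import Mathlib
import Cfsg.Agent.Helper96.OHDefs
import Cfsg.Agent.Helper97.OForm
import Cfsg.Agent.Helper31.OHOFIX
import Cfsg.Agent.Helper96.OHCDVD
import Cfsg.Agent.Helper88.OHOTYPEEVEN
import Cfsg.Agent.Helper88.OHOBAD
import Cfsg.Agent.Helper70.OHOSUB
import Cfsg.Agent.Helper37.OHOTYPEODD
import Cfsg.Agent.Helper37.OHOSTD
import Cfsg.Agent.Helper37.OHOFIXCONGR

set_option autoImplicit false
set_option linter.unusedSectionVars false
set_option linter.unusedVariables false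

/-!
# CALL S5993, piece EBADDIR (helper69): elliptic twin of OBADDIR - core, with ENDSUBCARD as a
hypothesis.
-/

namespace Cfsg.Agent.Helper69.OE5993

open Module Polynomial Cfsg Cfsg.Geo
open Cfsg.Agent.Helper13.TIu Cfsg.Agent.Helper96.OH
open Cfsg.Agent.Helper31.OH5992 Cfsg.Agent.Helper96.OH5992 Cfsg.Agent.Helper88.OH5992
open Cfsg.Agent.Helper70.OH5992 Cfsg.Agent.Helper37.OH5992

variable {ι : Type} [Fintype ι] [DecidableEq ι] {F : Type*} [Field F] (Q : (ι → F) → F)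

theorem ebd_ord_pos [Fintype F] (r : ℕ) [Fact r.Prime] (hrF : (r : F) ≠ 0) :
    0 < orderOf ((Fintype.card F : ℕ) : ZMod r) := by
  have hr : r.Prime := Fact.out
  obtain ⟨n, hp, hcard⟩ := FiniteField.card F (ringChar F)
  have hne : ((Fintype.card F : ℕ) : ZMod r) ≠ 0 := by
    intro h0
    rw [ZMod.natCast_eq_zero_iff] at h0
    rw [hcard] at h0
    have h1 := hr.dvd_of_dvd_pow h0
    have h2 := (Nat.prime_dvd_prime_iff_eq hr hp).mp h1
    apply hrF
    rw [h2]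
    exact CharP.cast_eq_zero F (ringChar F)
  rw [orderOf_pos_iff, isOfFinOrder_iff_pow_eq_one]
  exact ⟨r - 1, Nat.sub_pos_of_lt hr.one_lt, ZMod.pow_card_sub_one_eq_one hne⟩

theorem ebd_toLin'_pow_eq {κ : Type} [Fintype κ] [DecidableEq κ]
    (M : Matrix κ κ F) (k : ℕ) : Matrix.toLin' M ^ k = Matrix.toLin' (M ^ k) := by
  induction k with
  | zero => rw [pow_zero, pow_zero, Matrix.toLin'_one]; rfl
  | succ k ih => rw [pow_succ, pow_succ, Matrix.toLin'_mul, ih]; rfl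

theorem ebd_opres {κ : Type} [Fintype κ] [DecidableEq κ]
    (Q : (κ → F) → F) (g : Matrix.GeneralLinearGroup κ F) (hg : g ∈ Cfsg.isometryGroup F Q) :
    OPres Q (Matrix.toLin' (g : Matrix κ κ F)) := by
  intro v
  rw [Matrix.toLin'_apply]
  exact (Cfsg.Agent.Helper97.Gen.mem_isometryGroup_iff Q g).mp hg v

theorem ebd_pow {κ : Type} [Fintype κ] [DecidableEq κ]
    (g : Matrix.GeneralLinearGroup κ F) (r : ℕ) (hg : orderOf g = r) :
    Matrix.toLin' (g : Matrix κ κ F) ^ r = 1 := by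
  have h1 : g ^ r = 1 := by rw [← hg]; exact pow_orderOf_eq_one g
  have h2 : (g : Matrix κ κ F) ^ r = 1 := by
    rw [← Units.val_pow_eq_pow_val, h1]; rfl
  rw [ebd_toLin'_pow_eq, h2, Matrix.toLin'_one]; rfl

/-- an endomorphism of finite order is injective -/
theorem ebd_inj (T : Module.End F (ι → F)) (r : ℕ) (hr0 : 0 < r) (hTr : T ^ r = 1) :
    Function.Injective T := by
  intro x y hxy
  have h1 : (T ^ (r - 1)) (T x) = (T ^ (r - 1)) (T y) := by rw [hxy]
  have h2 : T ^ (r - 1) * T = 1 := by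
    rw [← pow_succ, Nat.sub_add_cancel hr0, hTr]
  have h3 : ∀ z, (T ^ (r - 1)) (T z) = z := fun z => by
    rw [← Module.End.mul_apply, h2, Module.End.one_apply]
  rw [h3, h3] at h1
  exact h1

theorem ebd_polar (T : Module.End F (ι → F)) (hT : OPres Q T) (x y : ι → F) :
    QuadraticMap.polar Q (T x) (T y) = QuadraticMap.polar Q x y := by
  unfold QuadraticMap.polar
  rw [← map_add, hT, hT, hT]

/-- the image of an elliptic `m`-space under an isometry of finite order is an elliptic `m`-space -/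
theorem ebd_map (T : Module.End F (ι → F)) (hT : OPres Q T) (r : ℕ) (hr0 : 0 < r)
    (hTr : T ^ r = 1) (m : ℕ) (W : Submodule F (ι → F))
    (hW : finrank F W = m ∧ ONd Q W ∧ ¬ OPl Q W) :
    finrank F (W.map T) = m ∧ ONd Q (W.map T) ∧ ¬ OPl Q (W.map T) := by
  have hinj := ebd_inj T r hr0 hTr
  have e := Submodule.equivMapOfInjective T hinj W
  refine ⟨?_, ?_, ?_⟩
  · rw [← hW.1]
    exact (Submodule.equivMapOfInjective T hinj W).finrank_eq.symm
  · rintro _ ⟨w, hw, rfl⟩ hw0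
    have hw0' : w ≠ 0 := by
      rintro rfl
      exact hw0 (map_zero T)
    obtain ⟨⟨x, hx, hx1⟩, ⟨y, hy, hy1⟩⟩ := hW.2.1 w hw hw0'
    exact ⟨⟨T x, Submodule.mem_map_of_mem hx, by rw [ebd_polar Q T hT]; exact hx1⟩,
      ⟨T y, Submodule.mem_map_of_mem hy, by rw [ebd_polar Q T hT]; exact hy1⟩⟩
  · intro hpl
    apply hW.2.2
    have hiso : AreIsometricFor Q W (W.map T) :=
      ⟨Submodule.equivMapOfInjective T hinj W, fun w => by
        rw [Submodule.coe_equivMapOfInjective_apply]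
        exact hT w⟩
    exact (Cfsg.Agent.Helper33.o_type_iso Q W (W.map T) hiso).mpr hpl

theorem oe_bad_dir_core [Fintype F] (p : ℕ) [Fact p.Prime] [CharP F p] (h2 : (2 : F) ≠ 0) (d m : ℕ)
    (hme : Even m) (hm2 : 2 ≤ m) (hmn : m ≤ 2 * d) (r : ℕ) [Fact r.Prime] (hr2 : 2 < r)
    (hrp : r ≠ p)
    (hΩ : r ∣ Nat.card {W : Submodule F (Unit ⊕ (Fin d ⊕ Fin d) → F) //
      finrank F W = m ∧ ONd (Cfsg.quadFormOdd d F) W ∧ ¬ OPl (Cfsg.quadFormOdd d F) W})
    (i c : ℕ) (hi : i = orderOf ((Fintype.card F : ℕ) : ZMod r))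
    (hc : c = if Even i then i else 2 * i)
    (hL : ∀ g : Matrix.GeneralLinearGroup (Unit ⊕ (Fin d ⊕ Fin d)) F,
      g ∈ Cfsg.isometryGroup F (Cfsg.quadFormOdd d F) → orderOf g = r →
      ∃ W : Submodule F (Unit ⊕ (Fin d ⊕ Fin d) → F),
        (finrank F W = m ∧ ONd (Cfsg.quadFormOdd d F) W ∧ ¬ OPl (Cfsg.quadFormOdd d F) W) ∧
        W.map (Matrix.toLin'
          (g : Matrix (Unit ⊕ (Fin d ⊕ Fin d)) (Unit ⊕ (Fin d ⊕ Fin d)) F)) ≤ W)
    (hnsc : ∀ K W₀ : Submodule F (Unit ⊕ (Fin d ⊕ Fin d) → F), ONd (Cfsg.quadFormOdd d F) K →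
      finrank F K < c →
      ((finrank F W₀ = m ∧ ONd (Cfsg.quadFormOdd d F) W₀ ∧ ¬ OPl (Cfsg.quadFormOdd d F) W₀) ∧
        W₀ ≤ K) →
      ¬ r ∣ Nat.card {W : Submodule F (Unit ⊕ (Fin d ⊕ Fin d) → F) //
        (finrank F W = m ∧ ONd (Cfsg.quadFormOdd d F) W ∧ ¬ OPl (Cfsg.quadFormOdd d F) W) ∧
          W ≤ K}) :
    c ≤ m ∧ m % c < (2 * d + 1) % c ∧ (0 < m % c ∨ (Even i ∧ Odd (m / i))) := by
  classical
  have hrpr : r.Prime := Fact.out
  have hrF : (r : F) ≠ 0 := by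
    intro h0
    have h1 := (CharP.cast_eq_zero_iff F p r).mp h0
    exact hrp ((Nat.prime_dvd_prime_iff_eq Fact.out hrpr).mp h1).symm
  have hQ := o_std_nondeg (F := F) h2 d
  have hipos : 0 < i := by rw [hi]; exact ebd_ord_pos r hrF
  have hcpos : 0 < c := by
    rw [hc]; split_ifs <;> omega
  have hceven : Even c := by
    rw [hc]; split_ifs with h
    · exact h
    · exact even_two_mul i
  have hcard : Fintype.card (Unit ⊕ (Fin d ⊕ Fin d)) = 2 * d + 1 := by
    simp; omega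
  have htop : finrank F (⊤ : Submodule F (Unit ⊕ (Fin d ⊕ Fin d) → F)) = 2 * d + 1 := by
    rw [finrank_top, Module.finrank_fintype_fun_eq_card, hcard]
  -- the basic divisibility for an invariant elliptic `m`-space
  have hdiv : ∀ (T : Module.End F (Unit ⊕ (Fin d ⊕ Fin d) → F)),
      OPres (Cfsg.quadFormOdd d F) T → T ^ r = 1 →
      ∀ W : Submodule F (Unit ⊕ (Fin d ⊕ Fin d) → F),
        finrank F W = m → ONd (Cfsg.quadFormOdd d F) W → W.map T ≤ W →
        c ∣ m - finrank F (W ⊓ LinearMap.ker (T - 1) : Submodule F _) := by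
    intro T hT hTr W hWm hW hWT
    have h := o_cdvd (Cfsg.quadFormOdd d F) hQ h2 T hT r hr2 hrF hTr i c hi hc W hWT hW
    rwa [hWm] at h
  have hfle : ∀ (T : Module.End F (Unit ⊕ (Fin d ⊕ Fin d) → F))
      (W : Submodule F (Unit ⊕ (Fin d ⊕ Fin d) → F)), finrank F W = m →
      finrank F (W ⊓ LinearMap.ker (T - 1) : Submodule F _) ≤ m := by
    intro T W hWm
    rw [← hWm]
    exact Submodule.finrank_mono inf_le_left
  -- (1) `c ≤ m`
  have h1 : c ≤ m := by
    by_contra hcon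
    have hmc : m < c := not_le.mp hcon
    -- every invariant elliptic `m`-space lies in the fixed space
    have hA : ∀ (T : Module.End F (Unit ⊕ (Fin d ⊕ Fin d) → F)),
        OPres (Cfsg.quadFormOdd d F) T → T ^ r = 1 →
        ∀ W : Submodule F (Unit ⊕ (Fin d ⊕ Fin d) → F),
          finrank F W = m → ONd (Cfsg.quadFormOdd d F) W → W.map T ≤ W →
          W ≤ LinearMap.ker (T - 1) := by
      intro T hT hTr W hWm hW hWT
      have h3 := hdiv T hT hTr W hWm hW hWT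
      have h4 := hfle T W hWm
      have h5 : m - finrank F (W ⊓ LinearMap.ker (T - 1) : Submodule F _) = 0 := by
        by_contra h6
        have h7 := Nat.le_of_dvd (Nat.pos_of_ne_zero h6) h3
        omega
      have h8 : finrank F (W ⊓ LinearMap.ker (T - 1) : Submodule F _) = finrank F W := by
        omega
      have h9 : W ⊓ LinearMap.ker (T - 1) = W :=
        Submodule.eq_of_le_of_finrank_eq inf_le_left h8
      rw [← h9]
      exact inf_le_right
    rcases le_or_gt c (2 * d + 1) with hcn | hcn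
    · obtain ⟨g, hg, hgr, hgfix⟩ := o_bad (F := F) p h2 d r hr2 hrp i c hi hc hcn
      obtain ⟨T, hTdef⟩ : ∃ T : Module.End F (Unit ⊕ (Fin d ⊕ Fin d) → F),
          T = Matrix.toLin' (g : Matrix (Unit ⊕ (Fin d ⊕ Fin d)) (Unit ⊕ (Fin d ⊕ Fin d)) F) :=
        ⟨_, rfl⟩
      rw [← hTdef] at hgfix
      have hT : OPres (Cfsg.quadFormOdd d F) T := hTdef ▸ ebd_opres _ g hg
      have hTr : T ^ r = 1 := hTdef ▸ ebd_pow g r hgr
      obtain ⟨W₀, hW₀, hW₀T⟩ := hL g hg hgr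
      rw [← hTdef] at hW₀T
      have hK : ONd (Cfsg.quadFormOdd d F) (LinearMap.ker (T - 1)) := by
        have h := (o_fix (Cfsg.quadFormOdd d F) hQ T hT r hrpr.pos hrF hTr ⊤ le_top
          (ond_top _ hQ)).1
        rwa [top_inf_eq] at h
      have hKc : finrank F (LinearMap.ker (T - 1)) < c := by
        rw [hgfix]; exact Nat.mod_lt _ hcpos
      have hW₀K : W₀ ≤ LinearMap.ker (T - 1) := hA T hT hTr W₀ hW₀.1 hW₀.2.1 hW₀T
      have hns := hnsc (LinearMap.ker (T - 1)) W₀ hK hKc ⟨hW₀, hW₀K⟩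
      apply hns
      have hcongr := o_fix_congr (F := F) T r hTr
        (fun W => finrank F W = m ∧ ONd (Cfsg.quadFormOdd d F) W ∧ ¬ OPl (Cfsg.quadFormOdd d F) W)
        (fun W hW => ebd_map (Cfsg.quadFormOdd d F) T hT r hrpr.pos hTr m W hW)
      have hcard2 : Nat.card {W : Submodule F (Unit ⊕ (Fin d ⊕ Fin d) → F) //
            (finrank F W = m ∧ ONd (Cfsg.quadFormOdd d F) W ∧ ¬ OPl (Cfsg.quadFormOdd d F) W) ∧
              W.map T ≤ W} =
          Nat.card {W : Submodule F (Unit ⊕ (Fin d ⊕ Fin d) → F) //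
            (finrank F W = m ∧ ONd (Cfsg.quadFormOdd d F) W ∧ ¬ OPl (Cfsg.quadFormOdd d F) W) ∧
              W ≤ LinearMap.ker (T - 1)} := by
        apply Nat.card_congr
        refine Equiv.subtypeEquivRight (fun W => ⟨fun h => ⟨h.1, hA T hT hTr W h.1.1 h.1.2.1 h.2⟩,
          fun h => ⟨h.1, ?_⟩⟩)
        rintro _ ⟨x, hx, rfl⟩
        have hxk := h.2 hx
        rw [LinearMap.mem_ker, LinearMap.sub_apply, Module.End.one_apply, sub_eq_zero] at hxk
        rw [hxk]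
        exact hx
      rw [← hcard2]
      exact (Nat.modEq_zero_iff_dvd.mp ((hcongr.symm.trans (Nat.modEq_zero_iff_dvd.mpr hΩ))))
    · -- `2d+1 < c`: the whole space is small
      have hKc : finrank F (⊤ : Submodule F (Unit ⊕ (Fin d ⊕ Fin d) → F)) < c := by
        rw [htop]; exact hcn
      obtain ⟨W₀, -, hW₀nd, hW₀dim, hW₀ty⟩ := o_sub (Cfsg.quadFormOdd d F) hQ h2 ⊤ (ond_top _ hQ) m
        hme (by omega) (by rw [htop]; omega) False
      have hns := hnsc ⊤ W₀ (ond_top _ hQ) hKc ⟨⟨hW₀dim, hW₀nd, fun h => hW₀ty.mp h⟩, le_top⟩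
      apply hns
      have hcard2 : Nat.card {W : Submodule F (Unit ⊕ (Fin d ⊕ Fin d) → F) //
            (finrank F W = m ∧ ONd (Cfsg.quadFormOdd d F) W ∧ ¬ OPl (Cfsg.quadFormOdd d F) W) ∧
              W ≤ ⊤} =
          Nat.card {W : Submodule F (Unit ⊕ (Fin d ⊕ Fin d) → F) //
            finrank F W = m ∧ ONd (Cfsg.quadFormOdd d F) W ∧ ¬ OPl (Cfsg.quadFormOdd d F) W} := by
        apply Nat.card_congr
        exact Equiv.subtypeEquivRight (fun W => ⟨fun h => h.1, fun h => ⟨h, le_top⟩⟩)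
      rw [hcard2]
      exact hΩ
  -- the bad element
  have hcn : c ≤ 2 * d + 1 := by omega
  obtain ⟨g, hg, hgr, hgfix⟩ := o_bad (F := F) p h2 d r hr2 hrp i c hi hc hcn
  obtain ⟨T, hTdef⟩ : ∃ T : Module.End F (Unit ⊕ (Fin d ⊕ Fin d) → F),
      T = Matrix.toLin' (g : Matrix (Unit ⊕ (Fin d ⊕ Fin d)) (Unit ⊕ (Fin d ⊕ Fin d)) F) :=
    ⟨_, rfl⟩
  rw [← hTdef] at hgfix
  have hT : OPres (Cfsg.quadFormOdd d F) T := hTdef ▸ ebd_opres _ g hg
  have hTr : T ^ r = 1 := hTdef ▸ ebd_pow g r hgr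
  obtain ⟨W, hW, hWT⟩ := hL g hg hgr
  rw [← hTdef] at hWT
  obtain ⟨f, hfdef⟩ : ∃ f : ℕ, f = finrank F (W ⊓ LinearMap.ker (T - 1) : Submodule F _) :=
    ⟨_, rfl⟩
  have hfK : f ≤ (2 * d + 1) % c := by
    rw [hfdef, ← hgfix]
    exact Submodule.finrank_mono inf_le_right
  have hfm : f ≤ m := hfdef ▸ hfle T W hW.1
  have hfdvd : c ∣ m - f := hfdef ▸ hdiv T hT hTr W hW.1 hW.2.1 hWT
  have hmodlt : (2 * d + 1) % c < c := Nat.mod_lt _ hcpos
  have hmf : m % c = f := by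
    obtain ⟨t, ht⟩ := hfdvd
    have hm' : m = f + c * t := by omega
    rw [hm', Nat.add_mul_mod_self_left]
    exact Nat.mod_eq_of_lt (by omega)
  -- parity
  have hmce : Even (m % c) := by
    obtain ⟨c', hc'⟩ := hceven
    obtain ⟨m', hm'⟩ := hme
    have := Nat.div_add_mod m c
    rw [hc'] at this ⊢
    have h5 : (c' + c') * (m / (c' + c')) = 2 * (c' * (m / (c' + c'))) := by ring
    exact ⟨(m % (c' + c')) / 2, by omega⟩
  have hnco : Odd ((2 * d + 1) % c) := by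
    obtain ⟨c', hc'⟩ := hceven
    have := Nat.div_add_mod (2 * d + 1) c
    rw [hc'] at this ⊢
    have h5 : (c' + c') * ((2 * d + 1) / (c' + c')) = 2 * (c' * ((2 * d + 1) / (c' + c'))) := by
      ring
    exact ⟨((2 * d + 1) % (c' + c')) / 2, by omega⟩
  have h3 : m % c < (2 * d + 1) % c := by
    rcases hmce with ⟨a, ha⟩
    rcases hnco with ⟨b, hb⟩
    omega
  refine ⟨h1, h3, ?_⟩
  rcases Nat.eq_zero_or_pos (m % c) with h0 | h0
  · right
    have hf0 : f = 0 := by omega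
    have hWk : W ⊓ LinearMap.ker (T - 1) = ⊥ := by
      apply Submodule.finrank_eq_zero.mp
      rw [← hfdef, hf0]
    by_cases hie : Even i
    · refine ⟨hie, ?_⟩
      have hev : Even (orderOf ((Fintype.card F : ℕ) : ZMod r)) := hi ▸ hie
      have h5 := o_type_even (Cfsg.quadFormOdd d F) hQ h2 T hT r hr2 hrF hTr hev W hWT hW.2.1 hWk
      rw [hW.1, ← hi] at h5
      rw [← Nat.not_even_iff_odd]
      exact fun h6 => hW.2.2 (h5.mpr h6)
    · exfalso
      have hod : Odd (orderOf ((Fintype.card F : ℕ) : ZMod r)) := hi ▸ Nat.not_even_iff_odd.mp hie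
      exact hW.2.2
        (o_type_odd (Cfsg.quadFormOdd d F) hQ h2 T hT r hr2 hrF hTr hod W hWT hW.2.1 hWk)
  · exact Or.inl h0

end Cfsg.Agent.Helper69.OE5993
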