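import Mathlib
import Cfsg.Agent.Helper96.OHDefs
import Cfsg.Agent.Helper69.OEEBADDIRcore
import Cfsg.Agent.Helper86.OEENDSUBCARD

set_option autoImplicit false
set_option linter.unusedSectionVars false
set_option linter.unusedVariables false

/-!
# CALL S5993, piece EBADDIR (helper69): elliptic twin of OBADDIR.
-/

namespace Cfsg.Agent.Helper69.OE5993

open Module Polynomial Cfsg Cfsg.Geo
open Cfsg.Agent.Helper13.TIu Cfsg.Agent.Helper96.OH
open Cfsg.Agent.Helper37.OH5992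
open Cfsg.Agent.Helper86.OE5993

variable {ι : Type} [Fintype ι] [DecidableEq ι] {F : Type*} [Field F] (Q : (ι → F) → F)

theorem oe_bad_dir [Fintype F] (p : ℕ) [Fact p.Prime] [CharP F p] (h2 : (2 : F) ≠ 0) (d m : ℕ)
    (hme : Even m) (hm2 : 2 ≤ m) (hmn : m ≤ 2 * d) (r : ℕ) [Fact r.Prime] (hr2 : 2 < r)
    (hrp : r ≠ p)
    (hΩ : r ∣ Nat.card {W : Submodule F (Unit ⊕ (Fin d ⊕ Fin d) → F) //
      finrank F W = m ∧ ONd (Cfsg.quadFormOdd d F) W ∧ ¬ OPl (Cfsg.quadFormOdd d F) W})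
    (i c : ℕ) (hi : i = orderOf ((Fintype.card F : ℕ) : ZMod r))
    (hc : c = if Even i then i else 2 * i)
    (hL : ∀ g : Matrix.GeneralLinearGroup (Unit ⊕ (Fin d ⊕ Fin d)) F,
      g ∈ Cfsg.isometryGroup F (Cfsg.quadFormOdd d F) → orderOf g = r →
      ∃ W : Submodule F (Unit ⊕ (Fin d ⊕ Fin d) → F),
        (finrank F W = m ∧ ONd (Cfsg.quadFormOdd d F) W ∧ ¬ OPl (Cfsg.quadFormOdd d F) W) ∧
        W.map (Matrix.toLin'
          (g : Matrix (Unit ⊕ (Fin d ⊕ Fin d)) (Unit ⊕ (Fin d ⊕ Fin d)) F)) ≤ W) :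
    c ≤ m ∧ m % c < (2 * d + 1) % c ∧ (0 < m % c ∨ (Even i ∧ Odd (m / i))) := by
  have hrpr : r.Prime := Fact.out
  have hrF : (r : F) ≠ 0 := by
    intro h0
    have h1 := (CharP.cast_eq_zero_iff F p r).mp h0
    exact hrp ((Nat.prime_dvd_prime_iff_eq Fact.out hrpr).mp h1).symm
  have hQ := o_std_nondeg (F := F) h2 d
  exact oe_bad_dir_core p h2 d m hme hm2 hmn r hr2 hrp hΩ i c hi hc hL
    (fun K W₀ hK hKc hW₀ =>
      oe_nd_sub_card (Cfsg.quadFormOdd d F) hQ h2 r hr2 hrF i c hi hc m hme K hK hKc W₀ hW₀)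

end Cfsg.Agent.Helper69.OE5993
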