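import Mathlib
import Cfsg.Agent.Helper13.TvCalc
import Cfsg.Agent.Helper13.RegUnip2

/-!
# Field-level lemmas for `Sp_4(F)` generated by three conjugate regular unipotents (helper69)

`sp4ru_q2`: an additive group of symmetric `2 × 2` matrices `(x, y; y, z)` stable under
congruence by `T01(1)`, `T01(τ)`, `T10(σ)` (with `σ τ = 1`) containing a suitable element is
everything.  `sp4ru_tau`: existence of `τ`.
-/

set_option autoImplicit false
set_option linter.unusedVariables false
set_option linter.unusedSectionVars false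
set_option linter.unusedSimpArgs false
set_option linter.unusedTactic false
set_option linter.unreachableTactic false

namespace Cfsg.Agent.Helper69

section sp4rua
variable {F : Type*} [Field F] [Fintype F]

theorem sp4ru_pow_inv (c : F) (hc : c ≠ 0) : ∃ k : ℕ, c ^ k = c⁻¹ := by
  classical
  have h1 := FiniteField.pow_card_sub_one_eq_one c hc
  have hq : 1 < Fintype.card F := Fintype.one_lt_card
  refine ⟨Fintype.card F - 2, ?_⟩
  have e : Fintype.card F - 1 = (Fintype.card F - 2) + 1 := by omega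
  rw [e, pow_succ] at h1
  exact eq_inv_of_mul_eq_one_left h1

theorem sp4ru_pow_closed (P : F → Prop) (c : F) (h : ∀ a, P a → P (c * a)) :
    ∀ k : ℕ, ∀ a, P a → P (c ^ k * a) := by
  intro k
  induction k with
  | zero => intro a ha; simpa using ha
  | succ k ih =>
    intro a ha
    have := h _ (ih a ha)
    have e : c * (c ^ k * a) = c ^ (k + 1) * a := by ring
    rwa [e] at this

theorem sp4ru_ringChar_two (h2 : (2 : F) = 0) : ringChar F = 2 := by
  apply CharP.ringChar_of_prime_eq_zero Nat.prime_two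
  exact_mod_cast h2

/-- Lemma Q2. -/
theorem sp4ru_q2 (τ σ : F) (hστ : σ * τ = 1) (hτ1 : 1 + τ ≠ 0)
    (hfull : ∀ P : F → Prop, P 0 → (∀ a b, P a → P b → P (a + b)) →
      (∀ a, P a → P (τ * a)) → (∃ c, c ≠ 0 ∧ P c) → ∀ t, P t)
    (M : F → F → F → Prop) (h0 : M 0 0 0)
    (hadd : ∀ x y z x' y' z', M x y z → M x' y' z' → M (x + x') (y + y') (z + z'))
    (hneg : ∀ x y z, M x y z → M (-x) (-y) (-z))
    (hA1 : ∀ x y z, M x y z → M (x + 2 * y + z) (y + z) z)
    (hAτ : ∀ x y z, M x y z → M (x + 2 * τ * y + τ ^ 2 * z) (y + τ * z) z)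
    (hB : ∀ x y z, M x y z → M x (y + σ * x) (z + 2 * σ * y + σ ^ 2 * x))
    (hstart : ∃ x y z, M x y z ∧ ((x ≠ 0 ∨ z ≠ 0) ∨ ((2 : F) ≠ 0 ∧ y ≠ 0))) :
    ∀ x y z, M x y z := by
  classical
  have hcast : ∀ {x y z x' y' z' : F}, M x y z → x = x' → y = y' → z = z' → M x' y' z' := by
    intro x y z x' y' z' h h1 h2 h3
    rw [← h1, ← h2, ← h3]
    exact h
  have hsub : ∀ x y z x' y' z', M x y z → M x' y' z' → M (x - x') (y - y') (z - z') := by
    intro x y z x' y' z' h h'
    exact hcast (hadd _ _ _ _ _ _ h (hneg _ _ _ h')) (by ring) (by ring) (by ring)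
  have hD1 : ∀ x y z, M x y z → M (2 * y + z) z 0 := fun x y z h =>
    hcast (hsub _ _ _ _ _ _ (hA1 x y z h) h) (by ring) (by ring) (by ring)
  have hDτ : ∀ x y z, M x y z → M (2 * τ * y + τ ^ 2 * z) (τ * z) 0 := fun x y z h =>
    hcast (hsub _ _ _ _ _ _ (hAτ x y z h) h) (by ring) (by ring) (by ring)
  have hDB : ∀ x y z, M x y z → M 0 (σ * x) (2 * σ * y + σ ^ 2 * x) := fun x y z h =>
    hcast (hsub _ _ _ _ _ _ (hB x y z h) h) (by ring) (by ring) (by ring)
  have hσ0 : σ ≠ 0 := left_ne_zero_of_mul_eq_one hστ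
  have hτ0 : τ ≠ 0 := right_ne_zero_of_mul_eq_one hστ
  -- it suffices to get the three coordinate axes
  suffices hax : (∀ a, M a 0 0) ∧ (∀ a, M 0 a 0) ∧ (∀ a, M 0 0 a) by
    intro x y z
    exact hcast (hadd _ _ _ _ _ _ (hadd _ _ _ _ _ _ (hax.1 x) (hax.2.1 y)) (hax.2.2 z))
      (by ring) (by ring) (by ring)
  by_cases h2 : (2 : F) = 0
  · -- characteristic two
    have hZ0 : ∃ x y : F, M x y 0 := ⟨0, 0, h0⟩
    have hZadd : ∀ a b : F, (∃ x y, M x y a) → (∃ x y, M x y b) → ∃ x y, M x y (a + b) := by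
      rintro a b ⟨x, y, h⟩ ⟨x', y', h'⟩
      exact ⟨_, _, hadd _ _ _ _ _ _ h h'⟩
    have hZσ : ∀ a : F, (∃ x y, M x y a) → ∃ x y, M x y (σ ^ 2 * a) := by
      rintro a ⟨x, y, h⟩
      refine ⟨0, _, hcast (hDB _ _ _ (hD1 x y a h)) rfl rfl ?_⟩
      linear_combination (σ * a + σ ^ 2 * y) * h2
    have hZne : ∃ c : F, c ≠ 0 ∧ ∃ x y, M x y c := by
      obtain ⟨x, y, z, h, hs⟩ := hstart
      have hs' : x ≠ 0 ∨ z ≠ 0 := by
        rcases hs with hs | hs
        · exact hs
        · exact absurd h2 hs.1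
      by_cases hz : z = 0
      · have hx : x ≠ 0 := by
          rcases hs' with hx | hz'
          · exact hx
          · exact absurd hz hz'
        refine ⟨σ ^ 2 * x, mul_ne_zero (pow_ne_zero 2 hσ0) hx, 0, _, hcast (hDB x y z h) rfl rfl ?_⟩
        linear_combination (σ * y) * h2
      · exact ⟨z, hz, x, y, h⟩
    -- closure under τ²
    have hZτ : ∀ a : F, (∃ x y, M x y a) → ∃ x y, M x y (τ ^ 2 * a) := by
      intro a ha
      obtain ⟨k, hk⟩ := sp4ru_pow_inv (σ ^ 2) (pow_ne_zero 2 hσ0)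
      have h1 := sp4ru_pow_closed (fun a => ∃ x y, M x y a) (σ ^ 2) hZσ k a ha
      have e : (σ ^ 2) ^ k = τ ^ 2 := by
        rw [hk]
        have : σ ^ 2 * τ ^ 2 = 1 := by rw [← mul_pow, hστ, one_pow]
        exact (eq_inv_of_mul_eq_one_right this).symm
      rw [e] at h1
      exact h1
    have hchar : ringChar F = 2 := sp4ru_ringChar_two h2
    have hZall : ∀ t : F, ∃ x y, M x y t := by
      have hP : ∀ t : F, ∃ x y, M x y (t ^ 2) := by
        apply hfull (fun t => ∃ x y, M x y (t ^ 2))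
        · exact ⟨0, 0, hcast h0 rfl rfl (by ring)⟩
        · rintro a b ⟨x, y, h⟩ ⟨x', y', h'⟩
          refine ⟨_, _, hcast (hadd _ _ _ _ _ _ h h') rfl rfl ?_⟩
          linear_combination (-a * b) * h2
        · intro a ha
          obtain ⟨x, y, h⟩ := hZτ _ ha
          exact ⟨x, y, hcast h rfl rfl (by ring)⟩
        · obtain ⟨c, hc, x, y, h⟩ := hZne
          obtain ⟨d, hd⟩ := FiniteField.isSquare_of_char_two hchar c
          refine ⟨d, ?_, x, y, hcast h rfl rfl (by rw [hd]; ring)⟩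
          rintro rfl
          apply hc
          rw [hd, mul_zero]
      intro t
      obtain ⟨d, hd⟩ := FiniteField.isSquare_of_char_two hchar t
      obtain ⟨x, y, h⟩ := hP d
      exact ⟨x, y, hcast h rfl rfl (by rw [hd]; ring)⟩
    have he : τ ^ 2 - τ ≠ 0 := by
      have e : τ ^ 2 - τ = τ * (1 + τ) - τ * 2 := by ring
      rw [e, h2, mul_zero, sub_zero]
      exact mul_ne_zero hτ0 hτ1
    have hM0 : ∀ a : F, M a 0 0 := by
      intro a
      obtain ⟨x, y, h⟩ := hZall (a * (τ ^ 2 - τ)⁻¹)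
      obtain ⟨x', y', h'⟩ := hZall (τ * (a * (τ ^ 2 - τ)⁻¹))
      refine hcast (hsub _ _ _ _ _ _ (hDτ _ _ _ h) (hD1 _ _ _ h')) ?_ (by ring) (by ring)
      have e1 : a * (τ ^ 2 - τ)⁻¹ * (τ ^ 2 - τ) = a := inv_mul_cancel_right₀ he a
      linear_combination (τ * y - y') * h2 + e1
    have hM1 : ∀ a : F, M 0 a 0 := by
      intro a
      obtain ⟨x, y, h⟩ := hZall a
      exact hcast (hsub _ _ _ _ _ _ (hD1 _ _ _ h) (hM0 (2 * y + a))) (by ring) (by ring) (by ring)
    refine ⟨hM0, hM1, ?_⟩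
    intro a
    obtain ⟨x, y, h⟩ := hZall a
    exact hcast (hsub _ _ _ _ _ _ (hsub _ _ _ _ _ _ h (hM0 x)) (hM1 y)) (by ring) (by ring) (by ring)
  · -- odd characteristic
    have h4 : (4 : F) ≠ 0 := by
      have e : (4 : F) = 2 * 2 := by norm_num
      rw [e]
      exact mul_ne_zero h2 h2
    have hne : ∃ c : F, c ≠ 0 ∧ M c 0 0 := by
      obtain ⟨x, y, z, h, hs⟩ := hstart
      by_cases hz : z = 0
      · subst hz
        by_cases hy : y = 0
        · subst hy
          have hx : x ≠ 0 := by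
            rcases hs with hs | hs
            · rcases hs with hs | hs
              · exact hs
              · exact absurd rfl hs
            · exact absurd rfl hs.2
          exact ⟨x, hx, h⟩
        · refine ⟨2 * y + 0, ?_, hD1 _ _ _ h⟩
          rw [add_zero]
          exact mul_ne_zero h2 hy
      · refine ⟨2 * z + 0, ?_, hD1 _ _ _ (hD1 _ _ _ h)⟩
        rw [add_zero]
        exact mul_ne_zero h2 hz
    have hstep : ∀ a : F, M a 0 0 → M 0 0 (2 * σ ^ 2 * a) := by
      intro a ha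
      exact hcast (hDB _ _ _ (hDB _ _ _ ha)) rfl (by ring) (by ring)
    have hcl : ∀ a : F, M a 0 0 → M (4 * σ * a) 0 0 := by
      intro a ha
      refine hcast (hD1 _ _ _ (hDτ _ _ _ (hstep a ha))) ?_ rfl rfl
      linear_combination (4 * σ * a) * hστ
    have hclτ : ∀ a : F, M a 0 0 → M (τ * a) 0 0 := by
      intro a ha
      have h4σ : 4 * σ ≠ 0 := mul_ne_zero h4 hσ0
      obtain ⟨k, hk⟩ := sp4ru_pow_inv (4 * σ) h4σ
      have h1 := sp4ru_pow_closed (fun a => M a 0 0) (4 * σ) hcl k a ha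
      rw [hk] at h1
      have hw : (4 * σ)⁻¹ * (4 * σ) = 1 := inv_mul_cancel₀ h4σ
      refine hcast (hadd _ _ _ _ _ _ (hadd _ _ _ _ _ _ h1 h1) (hadd _ _ _ _ _ _ h1 h1)) ?_
        (by ring) (by ring)
      linear_combination (τ * a) * hw - (4 * (4 * σ)⁻¹ * a) * hστ
    have hM0 : ∀ a : F, M a 0 0 := by
      apply hfull (fun a => M a 0 0) h0
      · intro a b ha hb
        exact hcast (hadd _ _ _ _ _ _ ha hb) rfl (by ring) (by ring)
      · exact hclτ
      · exact hne
    have h2σ : 2 * σ ^ 2 ≠ 0 := mul_ne_zero h2 (pow_ne_zero 2 hσ0)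
    have hM2 : ∀ a : F, M 0 0 a := by
      intro a
      refine hcast (hstep _ (hM0 ((2 * σ ^ 2)⁻¹ * a))) rfl rfl ?_
      exact mul_inv_cancel_left₀ h2σ a
    have hM1 : ∀ a : F, M 0 a 0 := by
      intro a
      exact hcast (hsub _ _ _ _ _ _ (hD1 _ _ _ (hM2 a)) (hM0 a)) (by ring) (by ring) (by ring)
    exact ⟨hM0, hM1, hM2⟩

/-- the parameter `τ`. -/
theorem sp4ru_tau (hF : Fintype.card F ≠ 2) :
    ∃ τ : F, τ ≠ 0 ∧ 1 + τ ≠ 0 ∧ ∀ P : F → Prop, P 0 → (∀ a b, P a → P b → P (a + b)) →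
      (∀ a, P a → P (τ * a)) → (∃ c, c ≠ 0 ∧ P c) → ∀ t, P t := by
  classical
  by_cases h3 : Fintype.card F = 3
  · refine ⟨1, one_ne_zero, ?_, ?_⟩
    · intro h
      have h2 : (2 : F) = 0 := by linear_combination h
      have := FiniteField.even_card_of_char_two (sp4ru_ringChar_two h2)
      omega
    · intro P hP0 hadd _ hc
      exact Helper13.ff_full_prime (by rw [h3]; norm_num) P hP0 hadd hc
  · obtain ⟨r, hr0, hgen⟩ := Helper13.ff_exists_gen (F := F)
    refine ⟨r, hr0, ?_, ?_⟩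
    · intro h
      have hr : r = -1 := by linear_combination h
      have hsub : (Finset.univ : Finset F) ⊆ {0, 1, -1} := by
        intro a _
        by_cases ha : a = 0
        · simp [ha]
        · obtain ⟨j, hj⟩ := hgen a ha
          rw [hr] at hj
          rcases neg_one_pow_eq_or F j with h1 | h1
          · simp [hj, h1]
          · simp [hj, h1]
      have h1 := Finset.card_le_card hsub
      have h2 : ({0, 1, -1} : Finset F).card ≤ 3 := Finset.card_le_three
      rw [Finset.card_univ] at h1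
      have hq : 1 < Fintype.card F := Fintype.one_lt_card
      omega
    · intro P hP0 hadd hmul hc
      obtain ⟨c, hc0, hc⟩ := hc
      intro t
      by_cases ht : t = 0
      · rw [ht]; exact hP0
      · obtain ⟨j, hj⟩ := hgen (t * c⁻¹) (mul_ne_zero ht (inv_ne_zero hc0))
        have := sp4ru_pow_closed P r hmul j c hc
        rwa [← hj, inv_mul_cancel_right₀ hc0] at this

end sp4rua

end Cfsg.Agent.Helper69
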