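import Mathlib
import Cfsg.Agent.Helper13.SpRU
import Cfsg.Agent.Helper69.Sp4RUa

/-!
# `Sp_4(F)` is generated by three conjugate regular unipotent elements (helper69)

PIECE A of CALL S2281 (`sp4_regUnip3`).
-/

set_option autoImplicit false
set_option linter.unusedVariables false
set_option linter.unusedSectionVars false
set_option linter.unusedSimpArgs false
set_option linter.unusedTactic false
set_option linter.unreachableTactic false
set_option linter.unnecessarySeqFocus false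

namespace Cfsg.Agent.Helper69

open Matrix

section sp4rub
variable {F : Type*} [Field F]

theorem m2_transpose (a b c d : F) : !![a, b; c, d]ᵀ = !![a, c; b, d] := by
  ext i j; fin_cases i <;> fin_cases j <;> rfl

/-- `[[1, S], [0, 1]]` with `S = (x, y; y, z)`. -/
def ruQ (x y z : F) : Matrix.symplecticGroup (Fin 2) F :=
  ⟨fromBlocks 1 !![x, y; y, z] 0 1, Helper13.spUp_mem_sp _ (by
    ext i j; fin_cases i <;> fin_cases j <;> rfl)⟩

/-- `[[1, 0], [S, 1]]` with `S = (x, y; y, z)`. -/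
def ruQ' (x y z : F) : Matrix.symplecticGroup (Fin 2) F :=
  ⟨fromBlocks 1 0 !![x, y; y, z] 1, Helper13.spLo_mem_sp _ (by
    ext i j; fin_cases i <;> fin_cases j <;> rfl)⟩

/-- Levi element of `T01(t)`. -/
def ruT (t : F) : Matrix.symplecticGroup (Fin 2) F :=
  ⟨fromBlocks !![1, t; 0, 1] 0 0 !![1, 0; -t, 1], by
    rw [Helper13.sp_mem_fromBlocks_iff]
    refine ⟨by simp, ?_, by simp⟩
    ext i j; fin_cases i <;> fin_cases j <;> simp [m2_transpose, Matrix.mul_apply, Fin.sum_univ_two]⟩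

/-- Levi element of `T10(s)`. -/
def ruB (s : F) : Matrix.symplecticGroup (Fin 2) F :=
  ⟨fromBlocks !![1, 0; s, 1] 0 0 !![1, -s; 0, 1], by
    rw [Helper13.sp_mem_fromBlocks_iff]
    refine ⟨by simp, ?_, by simp⟩
    ext i j; fin_cases i <;> fin_cases j <;> simp [m2_transpose, Matrix.mul_apply, Fin.sum_univ_two]⟩

/-- Levi-type element of `diag(a, 1)`. -/
def ruD (a b : F) (hab : a * b = 1) : Matrix.symplecticGroup (Fin 2) F :=
  ⟨fromBlocks !![a, 0; 0, 1] 0 0 !![b, 0; 0, 1], by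
    rw [Helper13.sp_mem_fromBlocks_iff]
    refine ⟨by simp, ?_, by simp⟩
    ext i j; fin_cases i <;> fin_cases j <;> simp [m2_transpose, Matrix.mul_apply, Fin.sum_univ_two, hab]⟩

/-- the element `J * L(diag(σ, 1))`. -/
def ruJ (τ σ : F) (h : σ * τ = 1) : Matrix.symplecticGroup (Fin 2) F :=
  ⟨fromBlocks 0 !![-τ, 0; 0, -1] !![σ, 0; 0, 1] 0, by
    rw [Helper13.sp_mem_fromBlocks_iff]
    refine ⟨by simp, ?_, by simp⟩
    ext i j; fin_cases i <;> fin_cases j <;> simp [m2_transpose, Matrix.mul_apply, Fin.sum_univ_two] <;>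
      linear_combination h⟩

theorem ruQ_val (x y z : F) : (ruQ x y z).1 = fromBlocks 1 !![x, y; y, z] 0 1 := rfl
theorem ruQ'_val (x y z : F) : (ruQ' x y z).1 = fromBlocks 1 0 !![x, y; y, z] 1 := rfl
theorem ruT_val (t : F) : (ruT t).1 = fromBlocks !![1, t; 0, 1] 0 0 !![1, 0; -t, 1] := rfl
theorem ruB_val (s : F) : (ruB s).1 = fromBlocks !![1, 0; s, 1] 0 0 !![1, -s; 0, 1] := rfl
theorem ruD_val (a b : F) (hab : a * b = 1) :
    (ruD a b hab).1 = fromBlocks !![a, 0; 0, 1] 0 0 !![b, 0; 0, 1] := rfl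
theorem ruJ_val (τ σ : F) (h : σ * τ = 1) :
    (ruJ τ σ h).1 = fromBlocks 0 !![-τ, 0; 0, -1] !![σ, 0; 0, 1] 0 := rfl

theorem ru_mul_val (a b : Matrix.symplecticGroup (Fin 2) F) : (a * b).1 = a.1 * b.1 := rfl

theorem ru_ext {a b : Matrix.symplecticGroup (Fin 2) F} (h : a.1 = b.1) : a = b := Subtype.ext h

theorem ru_one_val : ((1 : Matrix.symplecticGroup (Fin 2) F)).1 = fromBlocks 1 0 0 1 :=
  fromBlocks_one.symm

theorem ruQ_congr {x y z x' y' z' : F} (h1 : x = x') (h2 : y = y') (h3 : z = z') :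
    ruQ x y z = ruQ x' y' z' := by
  rw [h1, h2, h3]

theorem ruQ'_congr {x y z x' y' z' : F} (h1 : x = x') (h2 : y = y') (h3 : z = z') :
    ruQ' x y z = ruQ' x' y' z' := by
  rw [h1, h2, h3]

/-- R7. -/
theorem ruT_mul_ruQ (t x y z : F) :
    ruT t * ruQ x y z = ruQ (x + 2 * t * y + t ^ 2 * z) (y + t * z) z * ruT t := by
  apply ru_ext
  simp only [ru_mul_val, ruT_val, ruQ_val, fromBlocks_multiply, fromBlocks_inj]
  refine ⟨?_, ?_, ?_, ?_⟩ <;>
    (ext i j; fin_cases i <;> fin_cases j <;> simp [Matrix.mul_apply, Fin.sum_univ_two] <;> ring)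

/-- R8. -/
theorem ruB_mul_ruQ (s x y z : F) :
    ruB s * ruQ x y z = ruQ x (y + s * x) (z + 2 * s * y + s ^ 2 * x) * ruB s := by
  apply ru_ext
  simp only [ru_mul_val, ruB_val, ruQ_val, fromBlocks_multiply, fromBlocks_inj]
  refine ⟨?_, ?_, ?_, ?_⟩ <;>
    (ext i j; fin_cases i <;> fin_cases j <;> simp [Matrix.mul_apply, Fin.sum_univ_two] <;> ring)

/-- R9. -/
theorem ruT_mul_ruQ' (t x y z : F) :
    ruT t * ruQ' x y z = ruQ' x (y - t * x) (z - 2 * t * y + t ^ 2 * x) * ruT t := by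
  apply ru_ext
  simp only [ru_mul_val, ruT_val, ruQ'_val, fromBlocks_multiply, fromBlocks_inj]
  refine ⟨?_, ?_, ?_, ?_⟩ <;>
    (ext i j; fin_cases i <;> fin_cases j <;> simp [Matrix.mul_apply, Fin.sum_univ_two] <;> ring)

/-- R10. -/
theorem ruB_mul_ruQ' (s x y z : F) :
    ruB s * ruQ' x y z = ruQ' (x - 2 * s * y + s ^ 2 * z) (y - s * z) z * ruB s := by
  apply ru_ext
  simp only [ru_mul_val, ruB_val, ruQ'_val, fromBlocks_multiply, fromBlocks_inj]
  refine ⟨?_, ?_, ?_, ?_⟩ <;>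
    (ext i j; fin_cases i <;> fin_cases j <;> simp [Matrix.mul_apply, Fin.sum_univ_two] <;> ring)

theorem ruT_add (a b : F) : ruT (a + b) = ruT a * ruT b := by
  apply ru_ext
  simp only [ru_mul_val, ruT_val, fromBlocks_multiply, fromBlocks_inj]
  refine ⟨?_, ?_, ?_, ?_⟩ <;>
    (ext i j; fin_cases i <;> fin_cases j <;> simp [Matrix.mul_apply, Fin.sum_univ_two] <;> ring)

theorem ruT_inv (t : F) : (ruT t)⁻¹ = ruT (-t) := by
  apply inv_eq_of_mul_eq_one_right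
  apply ru_ext
  simp only [ru_mul_val, ru_one_val, ruT_val, fromBlocks_multiply, fromBlocks_inj]
  refine ⟨?_, ?_, ?_, ?_⟩ <;>
    (ext i j; fin_cases i <;> fin_cases j <;> simp [Matrix.mul_apply, Fin.sum_univ_two])

theorem ruB_inv (t : F) : (ruB t)⁻¹ = ruB (-t) := by
  apply inv_eq_of_mul_eq_one_right
  apply ru_ext
  simp only [ru_mul_val, ru_one_val, ruB_val, fromBlocks_multiply, fromBlocks_inj]
  refine ⟨?_, ?_, ?_, ?_⟩ <;>
    (ext i j; fin_cases i <;> fin_cases j <;> simp [Matrix.mul_apply, Fin.sum_univ_two])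

theorem ruQ_add (x y z x' y' z' : F) :
    ruQ (x + x') (y + y') (z + z') = ruQ x y z * ruQ x' y' z' := by
  apply ru_ext
  simp only [ru_mul_val, ruQ_val, fromBlocks_multiply, fromBlocks_inj]
  refine ⟨?_, ?_, ?_, ?_⟩ <;>
    (ext i j; fin_cases i <;> fin_cases j <;> simp [Matrix.mul_apply, Fin.sum_univ_two] <;> ring)

theorem ruQ_zero : ruQ (0 : F) 0 0 = 1 := by
  apply ru_ext
  simp only [ru_one_val, ruQ_val, fromBlocks_inj]
  refine ⟨?_, ?_, ?_, ?_⟩ <;>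
    first | trivial | (ext i j; fin_cases i <;> fin_cases j <;> simp)

theorem ruQ_inv (x y z : F) : (ruQ x y z)⁻¹ = ruQ (-x) (-y) (-z) := by
  apply inv_eq_of_mul_eq_one_right
  rw [← ruQ_add, ← ruQ_zero]
  exact ruQ_congr (by ring) (by ring) (by ring)

theorem ruQ'_add (x y z x' y' z' : F) :
    ruQ' (x + x') (y + y') (z + z') = ruQ' x y z * ruQ' x' y' z' := by
  apply ru_ext
  simp only [ru_mul_val, ruQ'_val, fromBlocks_multiply, fromBlocks_inj]
  refine ⟨?_, ?_, ?_, ?_⟩ <;>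
    (ext i j; fin_cases i <;> fin_cases j <;> simp [Matrix.mul_apply, Fin.sum_univ_two] <;> ring)

theorem ruQ'_zero : ruQ' (0 : F) 0 0 = 1 := by
  apply ru_ext
  simp only [ru_one_val, ruQ'_val, fromBlocks_inj]
  refine ⟨?_, ?_, ?_, ?_⟩ <;>
    first | trivial | (ext i j; fin_cases i <;> fin_cases j <;> simp)

theorem ruQ'_inv (x y z : F) : (ruQ' x y z)⁻¹ = ruQ' (-x) (-y) (-z) := by
  apply inv_eq_of_mul_eq_one_right
  rw [← ruQ'_add, ← ruQ'_zero]
  exact ruQ'_congr (by ring) (by ring) (by ring)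

/-- R1. -/
theorem ruD_conj (a b : F) (hab : a * b = 1) :
    ruD a b hab * (ruT 1 * ruQ 0 0 1) = (ruT a * ruQ 0 0 1) * ruD a b hab := by
  apply ru_ext
  simp only [ru_mul_val, ruT_val, ruQ_val, ruD_val, fromBlocks_multiply, fromBlocks_inj]
  refine ⟨?_, ?_, ?_, ?_⟩ <;>
    (ext i j; fin_cases i <;> fin_cases j <;>
      simp only [Matrix.one_fin_two, Matrix.mul_apply, Matrix.add_apply, Matrix.zero_apply,
        Fin.sum_univ_two, Matrix.of_apply, Matrix.cons_val_zero, Matrix.cons_val_one,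
        Matrix.cons_val', Fin.zero_eta, Fin.mk_one, Fin.isValue, Matrix.cons_val_fin_one] <;>
      first | ring1 | linear_combination hab | linear_combination (-1 : F) * hab)

/-- R3. -/
theorem ruJ_conj (τ σ : F) (h : σ * τ = 1) :
    ruJ τ σ h * (ruT 1 * ruQ 0 0 1) = (ruB (-σ) * ruQ' 0 0 (-1)) * ruJ τ σ h := by
  apply ru_ext
  simp only [ru_mul_val, ruT_val, ruB_val, ruQ_val, ruQ'_val, ruJ_val, fromBlocks_multiply,
    fromBlocks_inj]
  refine ⟨?_, ?_, ?_, ?_⟩ <;>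
    (ext i j; fin_cases i <;> fin_cases j <;>
      simp only [Matrix.one_fin_two, Matrix.mul_apply, Matrix.add_apply, Matrix.zero_apply,
        Fin.sum_univ_two, Matrix.of_apply, Matrix.cons_val_zero, Matrix.cons_val_one,
        Matrix.cons_val', Fin.zero_eta, Fin.mk_one, Fin.isValue, Matrix.cons_val_fin_one] <;>
      first | ring1 | linear_combination h | linear_combination (-1 : F) * h)

/-- R4. -/
theorem ruT_comm_ruQ' (t z : F) : ruT t * ruQ' 0 0 z = ruQ' 0 0 z * ruT t := by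
  rw [ruT_mul_ruQ']
  congr 1
  exact ruQ'_congr rfl (by ring) (by ring)

/-- R5, the braid relation. -/
theorem ru_braid (τ σ : F) (h : σ * τ = 1) :
    ruT τ * ruB (-σ) * ruT τ = ruB (-σ) * ruT τ * ruB (-σ) := by
  apply ru_ext
  simp only [ru_mul_val, ruT_val, ruB_val, fromBlocks_multiply, fromBlocks_inj]
  refine ⟨?_, ?_, ?_, ?_⟩ <;>
    (ext i j; fin_cases i <;> fin_cases j <;>
      simp only [Matrix.one_fin_two, Matrix.mul_apply, Matrix.add_apply, Matrix.zero_apply,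
        Fin.sum_univ_two, Matrix.of_apply, Matrix.cons_val_zero, Matrix.cons_val_one,
        Matrix.cons_val', Fin.zero_eta, Fin.mk_one, Fin.isValue, Matrix.cons_val_fin_one] <;>
      first | ring1 | linear_combination h | linear_combination (-1 : F) * h |
        linear_combination τ * h | linear_combination (-τ) * h |
        linear_combination σ * h | linear_combination (-σ) * h)

/-- conjugation of the upper elements by `u`. -/
theorem ru_u_mul_ruQ (x y z : F) :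
    (ruT 1 * ruQ 0 0 1) * ruQ x y z = ruQ (x + 2 * y + z) (y + z) z * (ruT 1 * ruQ 0 0 1) := by
  apply ru_ext
  simp only [ru_mul_val, ruT_val, ruQ_val, fromBlocks_multiply, fromBlocks_inj]
  refine ⟨?_, ?_, ?_, ?_⟩ <;>
    (ext i j; fin_cases i <;> fin_cases j <;> simp [Matrix.mul_apply, Fin.sum_univ_two] <;> ring)

/-- the element `S1`. -/
theorem ru_S1 (τ : F) :
    (ruT 1 * ruQ 0 0 1) * ruT τ =
      ruQ (-τ ^ 2 - 2 * τ) (-τ) 0 * (ruT τ * (ruT 1 * ruQ 0 0 1)) := by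
  apply ru_ext
  simp only [ru_mul_val, ruT_val, ruQ_val, fromBlocks_multiply, fromBlocks_inj]
  refine ⟨?_, ?_, ?_, ?_⟩ <;>
    (ext i j; fin_cases i <;> fin_cases j <;> simp [Matrix.mul_apply, Fin.sum_univ_two] <;> ring)

theorem ru_u_sub_one :
    (ruT (1 : F) * ruQ 0 0 1).1 - 1 = fromBlocks !![0, 1; 0, 0] !![0, 1; 0, 1] 0 !![0, 0; -1, 0] := by
  rw [ru_mul_val, ruT_val, ruQ_val, fromBlocks_multiply, ← fromBlocks_one, sub_eq_add_neg,
    fromBlocks_neg, fromBlocks_add, fromBlocks_inj]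
  refine ⟨?_, ?_, ?_, ?_⟩ <;>
    (ext i j; fin_cases i <;> fin_cases j <;> simp [Matrix.mul_apply, Fin.sum_univ_two])

theorem ru_u_cube :
    ((ruT (1 : F) * ruQ 0 0 1).1 - 1) ^ 3 = fromBlocks 0 !![-1, 0; 0, 0] 0 0 := by
  rw [ru_u_sub_one]
  simp only [pow_succ, pow_zero, one_mul, fromBlocks_multiply, fromBlocks_inj]
  refine ⟨?_, ?_, ?_, ?_⟩ <;>
    (ext i j; fin_cases i <;> fin_cases j <;> simp [Matrix.mul_apply, Fin.sum_univ_two])

theorem ru_u_nilp : IsNilpotent ((ruT (1 : F) * ruQ 0 0 1).1 - 1) := by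
  refine ⟨4, ?_⟩
  rw [pow_succ, ru_u_cube, ru_u_sub_one, fromBlocks_multiply, ← fromBlocks_zero, fromBlocks_inj]
  refine ⟨?_, ?_, ?_, ?_⟩ <;>
    (ext i j; fin_cases i <;> fin_cases j <;> simp [Matrix.mul_apply, Fin.sum_univ_two])

theorem ru_u_cube_ne : ((ruT (1 : F) * ruQ 0 0 1).1 - 1) ^ 3 ≠ 0 := by
  rw [ru_u_cube]
  intro h
  have := congrFun (congrFun h (Sum.inl 0)) (Sum.inr 0)
  simp at this

section closure
variable {H : Subgroup (Matrix.symplecticGroup (Fin 2) F)}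

theorem ruQ_conjT (t : F) (ht : ruT t ∈ H) (x y z : F) (h : ruQ x y z ∈ H) :
    ruQ (x + 2 * t * y + t ^ 2 * z) (y + t * z) z ∈ H := by
  have e : ruQ (x + 2 * t * y + t ^ 2 * z) (y + t * z) z = ruT t * ruQ x y z * (ruT t)⁻¹ := by
    rw [ruT_mul_ruQ, mul_inv_cancel_right]
  rw [e]
  exact mul_mem (mul_mem ht h) (inv_mem ht)

theorem ruQ_conjB (s : F) (hs : ruB s ∈ H) (x y z : F) (h : ruQ x y z ∈ H) :
    ruQ x (y + s * x) (z + 2 * s * y + s ^ 2 * x) ∈ H := by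
  have e : ruQ x (y + s * x) (z + 2 * s * y + s ^ 2 * x) = ruB s * ruQ x y z * (ruB s)⁻¹ := by
    rw [ruB_mul_ruQ, mul_inv_cancel_right]
  rw [e]
  exact mul_mem (mul_mem hs h) (inv_mem hs)

theorem ruQ'_conjT (t : F) (ht : ruT (-t) ∈ H) (x y z : F) (h : ruQ' z y x ∈ H) :
    ruQ' z (y + t * z) (x + 2 * t * y + t ^ 2 * z) ∈ H := by
  have e : ruQ' z (y + t * z) (x + 2 * t * y + t ^ 2 * z)
      = ruT (-t) * ruQ' z y x * (ruT (-t))⁻¹ := by
    rw [ruT_mul_ruQ', mul_inv_cancel_right]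
    exact ruQ'_congr rfl (by ring) (by ring)
  rw [e]
  exact mul_mem (mul_mem ht h) (inv_mem ht)

theorem ruQ'_conjB (s : F) (hs : ruB (-s) ∈ H) (x y z : F) (h : ruQ' z y x ∈ H) :
    ruQ' (z + 2 * s * y + s ^ 2 * x) (y + s * x) x ∈ H := by
  have e : ruQ' (z + 2 * s * y + s ^ 2 * x) (y + s * x) x
      = ruB (-s) * ruQ' z y x * (ruB (-s))⁻¹ := by
    rw [ruB_mul_ruQ', mul_inv_cancel_right]
    exact ruQ'_congr (by ring) (by ring) rfl
  rw [e]
  exact mul_mem (mul_mem hs h) (inv_mem hs)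

end closure

end sp4rub

/-- **PIECE A of CALL S2281**: `Sp_4(F)`, `|F| ≠ 2`, is generated by three conjugate regular
unipotent elements (given the generation criterion `hcrit`). -/
theorem sp4_regUnip3 {F : Type*} [Field F] [Fintype F] (hF : Fintype.card F ≠ 2)
    (hcrit : ∀ H : Subgroup (Matrix.symplecticGroup (Fin 2) F),
      (∀ (v : Fin 2 → F) (c : F), Helper13.SpUp H (c • Matrix.vecMulVec v v)) →
      (∀ (v : Fin 2 → F) (c : F), Helper13.SpLo H (c • Matrix.vecMulVec v v)) → H = ⊤) :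
    ∃ u g h : Matrix.symplecticGroup (Fin 2) F,
      IsNilpotent ((u : Matrix (Fin 2 ⊕ Fin 2) (Fin 2 ⊕ Fin 2) F) - 1) ∧
      ((u : Matrix (Fin 2 ⊕ Fin 2) (Fin 2 ⊕ Fin 2) F) - 1) ^ 3 ≠ 0 ∧
      Subgroup.closure ({u, g * u * g⁻¹, h * u * h⁻¹} : Set (Matrix.symplecticGroup (Fin 2) F)) = ⊤ := by
  classical
  obtain ⟨τ, hτ0, hτ1, hfull⟩ := sp4ru_tau hF
  have hστ : τ⁻¹ * τ = 1 := inv_mul_cancel₀ hτ0
  have hab : (1 + τ) * (1 + τ)⁻¹ = 1 := mul_inv_cancel₀ hτ1
  refine ⟨ruT 1 * ruQ 0 0 1, ruD (1 + τ) (1 + τ)⁻¹ hab, ruJ τ τ⁻¹ hστ, ru_u_nilp, ru_u_cube_ne, ?_⟩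
  generalize hσ : τ⁻¹ = σ at hστ
  generalize hu : ruT (1 : F) * ruQ 0 0 1 = u
  generalize hg : ruD (1 + τ) (1 + τ)⁻¹ hab = g
  generalize hh : ruJ τ σ hστ = h
  generalize hH : Subgroup.closure
    ({u, g * u * g⁻¹, h * u * h⁻¹} : Set (Matrix.symplecticGroup (Fin 2) F)) = H
  have hu_mem : u ∈ H := by rw [← hH]; exact Subgroup.subset_closure (by simp)
  have hu'_mem : g * u * g⁻¹ ∈ H := by rw [← hH]; exact Subgroup.subset_closure (by simp)
  have hu3_mem : h * u * h⁻¹ ∈ H := by rw [← hH]; exact Subgroup.subset_closure (by simp)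
  have e1 : g * u * g⁻¹ = ruT (1 + τ) * ruQ 0 0 1 := by
    rw [mul_inv_eq_iff_eq_mul, ← hg, ← hu]
    exact ruD_conj _ _ _
  have e3 : h * u * h⁻¹ = ruB (-σ) * ruQ' 0 0 (-1) := by
    rw [mul_inv_eq_iff_eq_mul, ← hh, ← hu]
    exact ruJ_conj _ _ _
  rw [e1] at hu'_mem
  rw [e3] at hu3_mem
  -- `ruT τ ∈ H`
  have hTτ : ruT τ ∈ H := by
    have e : ruT τ = (ruT (1 + τ) * ruQ 0 0 1) * u⁻¹ := by
      rw [eq_mul_inv_iff_mul_eq, ← hu, ← mul_assoc, ← ruT_add, add_comm]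
    rw [e]
    exact mul_mem hu'_mem (inv_mem hu_mem)
  have hc : ruB (-σ) * ruT τ * (ruB (-σ))⁻¹ ∈ H := by
    have e : ruB (-σ) * ruT τ * (ruB (-σ))⁻¹
        = (ruB (-σ) * ruQ' 0 0 (-1)) * ruT τ * (ruB (-σ) * ruQ' 0 0 (-1))⁻¹ := by
      rw [mul_assoc (ruB (-σ)) (ruQ' 0 0 (-1)) (ruT τ), ← ruT_comm_ruQ']
      group
    rw [e]
    exact mul_mem (mul_mem hu3_mem hTτ) (inv_mem hu3_mem)
  have hBσ : ruB (-σ) ∈ H := by
    have hb := ru_braid τ σ hστ
    have e : ruB (-σ) = ruT τ * (ruB (-σ) * ruT τ * (ruB (-σ))⁻¹) * (ruT τ)⁻¹ := by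
      calc ruB (-σ) = (ruB (-σ) * ruT τ * ruB (-σ)) * (ruB (-σ))⁻¹ * (ruT τ)⁻¹ := by group
        _ = (ruT τ * ruB (-σ) * ruT τ) * (ruB (-σ))⁻¹ * (ruT τ)⁻¹ := by rw [hb]
        _ = ruT τ * (ruB (-σ) * ruT τ * (ruB (-σ))⁻¹) * (ruT τ)⁻¹ := by group
    rw [e]
    exact mul_mem (mul_mem hTτ hc) (inv_mem hTτ)
  have hQ'1 : ruQ' (0 : F) 0 (-1) ∈ H := by
    have e : ruQ' (0 : F) 0 (-1) = (ruB (-σ))⁻¹ * (ruB (-σ) * ruQ' 0 0 (-1)) := by group
    rw [e]
    exact mul_mem (inv_mem hBσ) hu3_mem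
  have hBσ' : ruB σ ∈ H := by
    have := inv_mem hBσ
    rwa [ruB_inv, neg_neg] at this
  -- the upper unipotent radical
  have hU : ∀ x y z : F, ruQ x y z ∈ H := by
    apply sp4ru_q2 τ σ hστ hτ1 hfull (fun x y z => ruQ x y z ∈ H)
    · show ruQ (0 : F) 0 0 ∈ H
      rw [ruQ_zero]
      exact one_mem H
    · intro x y z x' y' z' h1 h2
      show ruQ (x + x') (y + y') (z + z') ∈ H
      rw [ruQ_add]
      exact mul_mem h1 h2
    · intro x y z h1
      show ruQ (-x) (-y) (-z) ∈ H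
      rw [← ruQ_inv]
      exact inv_mem h1
    · intro x y z h1
      show ruQ (x + 2 * y + z) (y + z) z ∈ H
      have e : ruQ (x + 2 * y + z) (y + z) z = u * ruQ x y z * u⁻¹ := by
        rw [← hu, ru_u_mul_ruQ, mul_inv_cancel_right]
      rw [e]
      exact mul_mem (mul_mem hu_mem h1) (inv_mem hu_mem)
    · intro x y z h1
      exact ruQ_conjT τ hTτ x y z h1
    · intro x y z h1
      exact ruQ_conjB σ hBσ' x y z h1
    · refine ⟨-τ ^ 2 - 2 * τ, -τ, 0, ?_, ?_⟩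
      · show ruQ (-τ ^ 2 - 2 * τ) (-τ) 0 ∈ H
        have e : ruQ (-τ ^ 2 - 2 * τ) (-τ) 0 = u * ruT τ * u⁻¹ * (ruT τ)⁻¹ := by
          rw [← hu, ru_S1]
          group
        rw [e]
        exact mul_mem (mul_mem (mul_mem hu_mem hTτ) (inv_mem hu_mem)) (inv_mem hTτ)
      · by_cases h2 : (2 : F) = 0
        · left; left
          have e : -τ ^ 2 - 2 * τ = -τ ^ 2 := by rw [h2]; ring
          rw [e]
          exact neg_ne_zero.2 (pow_ne_zero 2 hτ0)
        · right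
          exact ⟨h2, neg_ne_zero.2 hτ0⟩
  have hT1 : ruT (1 : F) ∈ H := by
    have e : ruT (1 : F) = u * (ruQ 0 0 1)⁻¹ := by
      rw [← hu]
      group
    rw [e]
    exact mul_mem hu_mem (inv_mem (hU 0 0 1))
  have hT1' : ruT (-1 : F) ∈ H := by
    rw [← ruT_inv]
    exact inv_mem hT1
  have hTτ' : ruT (-τ) ∈ H := by
    rw [← ruT_inv]
    exact inv_mem hTτ
  -- the lower unipotent radical
  have hL : ∀ x y z : F, ruQ' z y x ∈ H := by
    apply sp4ru_q2 τ σ hστ hτ1 hfull (fun x y z => ruQ' z y x ∈ H)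
    · show ruQ' (0 : F) 0 0 ∈ H
      rw [ruQ'_zero]
      exact one_mem H
    · intro x y z x' y' z' h1 h2
      show ruQ' (z + z') (y + y') (x + x') ∈ H
      rw [ruQ'_add]
      exact mul_mem h1 h2
    · intro x y z h1
      show ruQ' (-z) (-y) (-x) ∈ H
      rw [← ruQ'_inv]
      exact inv_mem h1
    · intro x y z h1
      show ruQ' z (y + z) (x + 2 * y + z) ∈ H
      have := ruQ'_conjT (1 : F) hT1' x y z h1
      have e : ruQ' z (y + z) (x + 2 * y + z) = ruQ' z (y + 1 * z) (x + 2 * 1 * y + 1 ^ 2 * z) :=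
        ruQ'_congr rfl (by ring) (by ring)
      rw [e]
      exact this
    · intro x y z h1
      exact ruQ'_conjT τ hTτ' x y z h1
    · intro x y z h1
      exact ruQ'_conjB σ hBσ x y z h1
    · refine ⟨-1, 0, 0, hQ'1, ?_⟩
      left; left
      exact neg_ne_zero.2 one_ne_zero
  apply hcrit H
  · intro v c k hk
    have e : k = ruQ (c * v 0 * v 0) (c * v 0 * v 1) (c * v 1 * v 1) := by
      apply ru_ext
      rw [hk, ruQ_val, fromBlocks_inj]
      refine ⟨rfl, ?_, rfl, rfl⟩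
      ext i j; fin_cases i <;> fin_cases j <;> simp [Matrix.vecMulVec_apply] <;> ring
    rw [e]
    exact hU _ _ _
  · intro v c k hk
    have e : k = ruQ' (c * v 0 * v 0) (c * v 0 * v 1) (c * v 1 * v 1) := by
      apply ru_ext
      rw [hk, ruQ'_val, fromBlocks_inj]
      refine ⟨rfl, rfl, ?_, rfl⟩
      ext i j; fin_cases i <;> fin_cases j <;> simp [Matrix.vecMulVec_apply] <;> ring
    rw [e]
    exact hL _ _ _

end Cfsg.Agent.Helper69
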